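import Cfsg.Agent.Lib.Components2.TwentyTwo.Setup

/-!
A simple group with 22 Sylow 3-subgroups: the Sylow 11-normaliser is dihedral (helper77).
-/

set_option autoImplicit false

open scoped Pointwise

namespace CfsgLib.Components2.TwentyTwo

variable {S : Type*} [Group S] [Finite S] [Fact (Nat.Prime 3)]

local notation "X" => Sylow 3 S

/-- Exponentiation by a residue modulo 11. -/
def pw (r : S) (a : ZMod 11) : S := r ^ a.val

omit [Finite S] [Fact (Nat.Prime 3)] in
theorem pw_add {r : S} (hr : r ^ 11 = 1) (a b : ZMod 11) : pw r (a + b) = pw r a * pw r b := by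
  rw [pw, pw, pw, ← pow_add, ZMod.val_add, pow_eq_pow_mod (a.val + b.val) hr]

omit [Finite S] [Fact (Nat.Prime 3)] in
theorem pw_zero (r : S) : pw r 0 = 1 := by rw [pw, ZMod.val_zero, pow_zero]

omit [Finite S] [Fact (Nat.Prime 3)] in
theorem pw_one (r : S) : pw r 1 = r := pow_one r

/-- `-1 ≠ 1` modulo 11. -/
theorem neg_one_ne_one_eleven : (-1 : ZMod 11) ≠ 1 := by decide

omit [Finite S] [Fact (Nat.Prime 3)] in
theorem pw_natCast {r : S} (hr : r ^ 11 = 1) (n : ℕ) : pw r (n : ZMod 11) = r ^ n := by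
  rw [pw, ZMod.val_natCast, ← pow_eq_pow_mod n hr]

/-- The orbit of `u` under `⟨r⟩`. -/
def rorb (r : S) (u : X) : Set X := Set.range fun a : ZMod 11 => pw r a • u

/-- A permutation representation of a conjugation relation. -/
theorem conj_pw {r s : S} (hr : r ^ 11 = 1) {K : ZMod 11} (hs : s * r * s⁻¹ = pw r K) (a : ZMod 11) :
    s * pw r a * s⁻¹ = pw r (K * a) := by
  have h1 : ∀ n : ℕ, s * r ^ n * s⁻¹ = pw r (K * n) := by
    intro n
    induction n with
    | zero => simp [pw_zero]
    | succ n ih =>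
      rw [pow_succ, show s * (r ^ n * r) * s⁻¹ = (s * r ^ n * s⁻¹) * (s * r * s⁻¹) by group, ih, hs,
        ← pw_add hr, Nat.cast_succ, mul_add, mul_one]
  have := h1 a.val
  rwa [ZMod.natCast_zmod_val] at this

theorem conj_pow {r s : S} (hr : r ^ 11 = 1) {K : ZMod 11} (hs : s * r * s⁻¹ = pw r K) (n : ℕ) :
    s ^ n * r * (s ^ n)⁻¹ = pw r (K ^ n) := by
  induction n with
  | zero => simp [pw_one]
  | succ n ih =>
    rw [pow_succ', show s * s ^ n * r * (s * s ^ n)⁻¹ = s * (s ^ n * r * (s ^ n)⁻¹) * s⁻¹ by group, ih,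
      conj_pw hr hs, pow_succ']

section
variable (h : Hyp S) {r : S} (hr : r ^ 11 = 1) (hr1 : r ≠ 1)
include h hr hr1

theorem pw_smul_eq {a : ZMod 11} {u : X} (he : pw r a • u = u) : a = 0 := by
  have h1 : pw r a ^ 11 = 1 := by rw [pw, ← pow_mul, mul_comm, pow_mul, hr, one_pow]
  have h2 := no_eleven h h1 he
  rw [pw, ← orderOf_dvd_iff_pow_eq_one] at h2
  have ho : orderOf r = 11 := by
    haveI := Fact.mk (by norm_num : Nat.Prime 11)
    exact orderOf_eq_prime hr hr1
  rw [ho] at h2
  exact (ZMod.val_eq_zero a).1 (Nat.eq_zero_of_dvd_of_lt h2 (ZMod.val_lt a))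

theorem pw_smul_inj (u : X) : Function.Injective fun a : ZMod 11 => pw r a • u := by
  intro a b hab
  have he : pw r (a - b) • (pw r b • u) = pw r b • u := by
    rw [smul_smul, ← pw_add hr, sub_add_cancel]
    exact hab
  exact sub_eq_zero.1 (pw_smul_eq h hr hr1 he)

theorem ncard_rorb (u : X) : (rorb r u).ncard = 11 := by
  rw [rorb, ← Nat.card_coe_set_eq, Nat.card_range_of_injective (pw_smul_inj h hr hr1 u), Nat.card_zmod]

omit h hr1 in
theorem pw_smul_mem_rorb {u v : X} (hv : v ∈ rorb r u) (a : ZMod 11) : pw r a • v ∈ rorb r u := by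
  obtain ⟨b, rfl⟩ := hv
  exact ⟨a + b, by show pw r (a + b) • u = _; rw [pw_add hr, mul_smul]⟩

theorem cover {u v : X} (hv : v ∉ rorb r u) (w : X) : w ∈ rorb r u ∨ w ∈ rorb r v := by
  have hdisj : Disjoint (rorb r u) (rorb r v) := by
    rw [Set.disjoint_left]
    rintro z ⟨a, rfl⟩ ⟨b, hb⟩
    refine hv ⟨-b + a, ?_⟩
    show pw r (-b + a) • u = v
    have hb' : pw r b • v = pw r a • u := hb
    rw [pw_add hr, mul_smul, ← hb', smul_smul, ← pw_add hr, neg_add_cancel, pw_zero, one_smul]
  have hun : rorb r u ∪ rorb r v = Set.univ := by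
    refine Set.eq_of_subset_of_ncard_le (Set.subset_univ _) ?_
    rw [Set.ncard_union_eq hdisj, ncard_rorb h hr hr1, ncard_rorb h hr hr1, Set.ncard_univ, h.card]
  exact hun.ge (Set.mem_univ w)

theorem exists_not_mem (u : X) : ∃ v, v ∉ rorb r u := by
  by_contra hc
  push Not at hc
  have h1 : rorb r u = Set.univ := Set.eq_univ_of_forall hc
  have h2 := ncard_rorb h hr hr1 u
  rw [h1, Set.ncard_univ, h.card] at h2
  omega

omit hr1 in
theorem sign_fpf_false {w : S} (hw : w ^ 2 = 1) (hfix : ∀ u : X, w • u ≠ u) : False := by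
  classical
  letI := Fintype.ofFinite X
  haveI := h.simple
  have h1 : Equiv.Perm.sign (MulAction.toPermHom S (Sylow 3 S) w) = 1 := sign_eq_one h.noncomm w
  have hsup : (MulAction.toPermHom S X w).support.card = 2 * 11 := by
    rw [show (MulAction.toPermHom S X w).support = Finset.univ from
      Finset.eq_univ_iff_forall.2 fun u => Equiv.Perm.mem_support.2 (hfix u), Finset.card_univ,
      ← Nat.card_eq_fintype_card, h.card]
  rw [sign_of_sq_eq_one _ (by rw [← map_pow, hw, map_one]) hsup] at h1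
  exact absurd h1 (by decide)

theorem comm_fix {x : S} (hx : x * r = r * x) {u : X} (hu : x • u ∈ rorb r u) :
    ∃ a, x = pw r a := by
  obtain ⟨a, ha⟩ := hu
  have hc : Commute x r := hx
  obtain ⟨v, hv⟩ := exists_not_mem h hr hr1 u
  let y := pw r (-a) * x
  have hcy : ∀ b, y * pw r b = pw r b * y := fun b =>
    ((((Commute.refl r).pow_pow _ _).mul_left (hc.pow_right _))).eq
  have hyu : y • u = u := by
    show (pw r (-a) * x) • u = u
    have ha' : pw r a • u = x • u := ha
    rw [mul_smul, ← ha', smul_smul, ← pw_add hr, neg_add_cancel, pw_zero, one_smul]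
  have hyrorb : ∀ b, y • (pw r b • u) = pw r b • u := fun b => by
    rw [smul_smul, hcy, mul_smul, hyu]
  obtain ⟨c, hc'⟩ : y • v ∈ rorb r v := by
    rcases cover h hr hr1 hv (y • v) with ⟨b, hb⟩ | h2
    · exfalso
      refine hv ⟨b, ?_⟩
      exact MulAction.injective y ((hyrorb b).trans hb)
    · exact h2
  have hcv : y • v = pw r c • v := hc'.symm
  have hiter : ∀ n : ℕ, ∀ b, y ^ n • (pw r b • v) = pw r (b + n * c) • v := by
    intro n
    induction n with
    | zero => simp
    | succ n ih =>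
      intro b
      rw [pow_succ', mul_smul, ih, smul_smul, hcy, mul_smul, hcv, smul_smul, ← pw_add hr]
      congr 2
      push_cast
      ring
  have hpowfix : ∀ n : ℕ, ∀ b, y ^ n • (pw r b • u) = pw r b • u := by
    intro n
    induction n with
    | zero => simp
    | succ n ih => intro b; rw [pow_succ', mul_smul, ih, hyrorb]
  have hy11 : y ^ 11 = 1 := by
    refine eq_one_of_fixed h fun w => ?_
    rcases cover h hr hr1 hv w with ⟨b, rfl⟩ | ⟨b, rfl⟩
    · exact hpowfix 11 b
    · rw [hiter 11 b, show ((11 : ℕ) : ZMod 11) = 0 from rfl, zero_mul, add_zero]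
  have hy1 := no_eleven h hy11 hyu
  refine ⟨a, ?_⟩
  calc x = pw r a * y := by
        show x = pw r a * (pw r (-a) * x)
        rw [← mul_assoc, ← pw_add hr, add_neg_cancel, pw_zero, one_mul]
    _ = pw r a := by rw [hy1, mul_one]

/-- The Sylow 11-subgroup is self-centralising. -/
theorem centralizer_eq {x : S} (hx : x * r = r * x) : ∃ a, x = pw r a := by
  by_contra hno
  have hswap : ∀ u : X, x • u ∉ rorb r u := fun u hu => hno (comm_fix h hr hr1 hx hu)
  have hx2 : ∀ u : X, (x * x) • u ∈ rorb r u := by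
    intro u
    rcases cover h hr hr1 (hswap u) ((x * x) • u) with h1 | h1
    · exact h1
    · exfalso
      rw [mul_smul] at h1
      exact hswap (x • u) h1
  obtain ⟨u₀⟩ : Nonempty X := inferInstance
  have hc : Commute x r := hx
  obtain ⟨b, hb⟩ := comm_fix h hr hr1 (hc.mul_left hc).eq (hx2 u₀)
  have hw : (x ^ 11) ^ 2 = 1 := by
    rw [← pow_mul, mul_comm, pow_mul, pow_two, hb, pw, ← pow_mul, mul_comm, pow_mul, hr, one_pow]
  refine sign_fpf_false h hr hw fun u he => hswap u ?_
  have h11 : x ^ 11 = x * pw r (5 * b) := by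
    have h5 : ∀ n : ℕ, pw r b ^ n = pw r (n * b) := by
      intro n
      induction n with
      | zero => simp [pw_zero]
      | succ n ih => rw [pow_succ, ih, ← pw_add hr]; congr 1; push_cast; ring
    have e11 : x ^ 11 = x * (x * x) ^ 5 := by rw [← pow_two, ← pow_mul, ← pow_succ']
    rw [e11, hb, h5]
    rfl
  rw [h11, mul_smul, smul_smul, show x * pw r (5 * b) = pw r (5 * b) * x from (hc.pow_right _).eq,
    mul_smul] at he
  refine ⟨-(5 * b), ?_⟩
  show pw r (-(5 * b)) • u = x • u
  conv_lhs => rw [← he]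
  rw [smul_smul, ← pw_add hr, neg_add_cancel, pw_zero, one_smul]

theorem fixed_unique {s : S} {K : ZMod 11} (hs : s * r * s⁻¹ = pw r K) (hK : K ≠ 1) {u : X}
    (hu : s • u = u) {a : ZMod 11} (ha : s • (pw r a • u) = pw r a • u) : a = 0 := by
  haveI := Fact.mk (by norm_num : Nat.Prime 11)
  have h2 : pw r (K * a) • u = pw r a • u := by
    rw [← conj_pw hr hs, mul_smul, inv_smul_eq_iff.2 hu.symm, mul_smul, ha]
  have h3 := pw_smul_inj h hr hr1 u h2
  have h4 : (K - 1) * a = 0 := by linear_combination h3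
  exact (mul_eq_zero.1 h4).resolve_left (sub_ne_zero.2 hK)

theorem ncard_fixed_le {s : S} {K : ZMod 11} (hs : s * r * s⁻¹ = pw r K) (hK : K ≠ 1) :
    {u : X | s • u = u}.ncard ≤ 2 := by
  by_contra hc
  obtain ⟨a, ha, b, hb, c, hc', hab, hac, hbc⟩ := (Set.two_lt_ncard (Set.toFinite _)).1 (not_le.1 hc)
  have key : ∀ {p q : X}, s • p = p → s • q = q → q ∈ rorb r p → p = q := by
    rintro p q hp hq ⟨i, rfl⟩
    have := fixed_unique h hr hr1 hs hK hp hq
    show p = pw r i • p
    rw [this, pw_zero, one_smul]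
  have hb' : b ∉ rorb r a := fun hm => hab (key ha hb hm)
  rcases cover h hr hr1 hb' c with hm | hm
  · exact hac (key ha hc' hm)
  · exact hbc (key hb hc' hm)

/-- No element of order 5 normalises `⟨r⟩` without centralising it. -/
theorem no_five {s : S} {K : ZMod 11} (hs : s * r * s⁻¹ = pw r K) (hK : K ≠ 1) (h5 : s ^ 5 = 1) :
    False := by
  haveI := Fact.mk (by norm_num : Nat.Prime 5)
  have hcard : (Set.univ : Set X).ncard = 22 := by rw [Set.ncard_univ, h.card]
  let σ : Equiv.Perm X := MulAction.toPermHom S X s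
  have hσ : σ ^ 5 = 1 := by rw [← map_pow, h5, map_one]
  have h1 := modEq_fixed σ 5 hσ Set.univ fun _ _ => Set.mem_univ _
  have hle := ncard_fixed_le h hr hr1 hs hK
  have e : {y : X | y ∈ Set.univ ∧ σ y = y} = {u : X | s • u = u} := by ext y; simp [σ]
  rw [e, hcard] at h1
  unfold Nat.ModEq at h1
  have h2 : {u : X | s • u = u}.ncard = 2 := by omega
  obtain ⟨u, v, huv, he⟩ := Set.ncard_eq_two.1 h2
  have hu : s • u = u := (he.ge (Set.mem_insert u _) :)
  have hv : s • v = v := (he.ge (Set.mem_insert_of_mem u rfl) :)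
  have hinv : ∀ y ∈ orb u v, σ y ∈ orb u v := by
    intro y hy
    have := smul_mem_orb s hy
    rwa [hu, hv] at this
  have h3 := modEq_fixed σ 5 hσ (orb u v) hinv
  have hsing : {y : X | y ∈ orb u v ∧ σ y = y} = {v} := by
    ext y
    constructor
    · rintro ⟨hy, hfix⟩
      rcases he.le (show y ∈ {u : X | s • u = u} from hfix) with rfl | h'
      · exact absurd rfl (ne_of_mem_orb huv hy)
      · exact h'
    · rintro rfl
      exact ⟨self_mem_orb u y, hv⟩
  rw [hsing, Set.ncard_singleton] at h3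
  unfold Nat.ModEq at h3
  rcases orb_ncard h huv with h4 | h4 <;> rw [h4] at h3 <;> omega

/-- Every element normalising `⟨r⟩` centralises or inverts `r`. -/
theorem conj_cases {s : S} {K : ZMod 11} (hs : s * r * s⁻¹ = pw r K) : K = 1 ∨ K = -1 := by
  have key : ∀ K : ZMod 11, K = 0 ∨ K = 1 ∨ K = -1 ∨
      ((K ^ 2) ^ 11 ≠ 1 ∧ (K ^ 2) ^ 55 = 1) := by decide +kernel
  rcases key K with h0 | h1 | h1 | ⟨hne, h55⟩
  · exfalso
    refine hr1 ?_
    rw [h0, pw_zero, mul_inv_eq_one, mul_eq_left] at hs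
    exact hs
  · exact Or.inl h1
  · exact Or.inr h1
  · exfalso
    obtain ⟨a, ha⟩ : ∃ a, s ^ 10 = pw r a := by
      refine centralizer_eq h hr hr1 ?_
      have h10 : ∀ K : ZMod 11, K ≠ 0 → K ^ 10 = 1 := by decide +kernel
      have := conj_pow hr hs 10
      rw [h10 K (fun h0 => absurd (h0 ▸ h55) (by decide +kernel)), pw_one, mul_inv_eq_iff_eq_mul] at this
      exact this
    refine no_five h hr hr1 (s := s ^ 22) (conj_pow hr hs 22)
      (fun he => hne (by rw [← pow_mul]; exact he)) ?_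
    rw [← pow_mul, show 22 * 5 = 10 * 11 from rfl, pow_mul, ha, pw, ← pow_mul, mul_comm, pow_mul, hr,
      one_pow]

end

/-- An element of order 11 and an involution inverting it, with its two fixed points. -/
structure Config (S : Type*) [Group S] where
  r : S
  t : S
  α : Sylow 3 S
  β : Sylow 3 S
  r_pow : r ^ 11 = 1
  r_ne : r ≠ 1
  t_pow : t ^ 2 = 1
  conj : t * r * t⁻¹ = pw r (-1)
  fix_α : t • α = α
  fix_β : t • β = β
  β_not : β ∉ rorb r α
  fix_only : ∀ u, t • u = u → u = α ∨ u = β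

theorem eleven_dvd (h : Hyp S) : 11 ∣ Nat.card S := by
  obtain ⟨x⟩ : Nonempty X := inferInstance
  have := (Subgroup.normalizer (x : Set S)).index_dvd_card
  rw [← Sylow.card_eq_index_normalizer x, h.card] at this
  exact (by norm_num : 11 ∣ 22).trans this

/-- The Sylow 11-subgroup has order 11. -/
theorem card_sylow_eleven (h : Hyp S) (R : Sylow 11 S) : Nat.card R = 11 := by
  haveI := Fact.mk (by norm_num : Nat.Prime 11)
  obtain ⟨x⟩ : Nonempty X := inferInstance
  obtain ⟨r₀, hr₀⟩ := exists_prime_orderOf_dvd_card' (G := S) 11 (eleven_dvd h)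
  have hN : ¬ 11 ∣ Nat.card (Subgroup.normalizer (x : Set S)) := by
    intro hd
    obtain ⟨y, hy⟩ := exists_prime_orderOf_dvd_card' (G := Subgroup.normalizer (x : Set S)) 11 hd
    have hy' : orderOf (y : S) = 11 := by rw [Subgroup.orderOf_coe, hy]
    have h1 := no_eleven h (hy' ▸ pow_orderOf_eq_one (y : S))
      (Sylow.smul_eq_iff_mem_normalizer.2 y.2)
    rw [h1, orderOf_one] at hy'
    omega
  have hS := Subgroup.card_mul_index (Subgroup.normalizer (x : Set S))
  rw [← Sylow.card_eq_index_normalizer x, h.card] at hS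
  rw [R.card_eq_multiplicity]
  conv_rhs => rw [← pow_one 11]
  congr 1
  rw [← hS, Nat.factorization_mul Nat.card_pos.ne' (by norm_num), Finsupp.add_apply,
    Nat.factorization_eq_zero_of_not_dvd hN, zero_add, show (22 : ℕ) = 11 ^ 1 * 2 from rfl,
    Nat.factorization_mul (by norm_num) (by norm_num), Finsupp.add_apply,
    (by norm_num : Nat.Prime 11).factorization_pow, Finsupp.single_eq_same,
    Nat.factorization_eq_zero_of_not_dvd (by norm_num : ¬ 11 ∣ 2)]

theorem conj_pw_of_mem_normalizer {r s : S} (hr : r ^ 11 = 1)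
    (hs : s ∈ Subgroup.normalizer (Subgroup.zpowers r : Set S)) :
    ∃ K, s * r * s⁻¹ = pw r K := by
  obtain ⟨i, hi⟩ := Subgroup.mem_zpowers_iff.1
    ((Subgroup.mem_normalizer_iff.1 hs r).1 (Subgroup.mem_zpowers r))
  refine ⟨((i % 11).toNat : ℕ), ?_⟩
  rw [← hi, pw_natCast hr, ← zpow_natCast, Int.toNat_of_nonneg (Int.emod_nonneg i (by norm_num))]
  have hr' : r ^ (11 : ℤ) = 1 := by exact_mod_cast hr
  conv_lhs => rw [← Int.mul_ediv_add_emod i 11, zpow_add, zpow_mul, hr', one_zpow, one_mul]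

/-- The configuration exists. -/
theorem exists_config (h : Hyp S) : Nonempty (Config S) := by
  classical
  haveI := Fact.mk (by norm_num : Nat.Prime 11)
  haveI := h.simple
  obtain ⟨R⟩ : Nonempty (Sylow 11 S) := inferInstance
  have hR := card_sylow_eleven h R
  obtain ⟨r₀, hr₀⟩ := exists_prime_orderOf_dvd_card' (G := R) 11 (dvd_of_eq hR.symm)
  obtain ⟨r, hrdef⟩ : ∃ r : S, r = (r₀ : S) := ⟨_, rfl⟩
  have ho : orderOf r = 11 := by rw [hrdef, Subgroup.orderOf_coe, hr₀]
  have hr : r ^ 11 = 1 := ho ▸ pow_orderOf_eq_one r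
  have hr1 : r ≠ 1 := fun he => by rw [he, orderOf_one] at ho; omega
  have hRr : (R : Subgroup S) = Subgroup.zpowers r :=
    (Subgroup.eq_of_le_of_card_ge (Subgroup.zpowers_le.2 (hrdef ▸ r₀.2))
      (by rw [Nat.card_zpowers, ho]; exact hR.le)).symm
  -- Burnside
  obtain ⟨s, hs, hsc⟩ : ∃ s, s ∈ Subgroup.normalizer (Subgroup.zpowers r : Set S) ∧
      s * r ≠ r * s := by
    by_contra hc
    push Not at hc
    have hle : Subgroup.normalizer ((R : Subgroup S) : Set S) ≤
        Subgroup.centralizer ((R : Subgroup S) : Set S) := by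
      intro s hs
      rw [Subgroup.mem_centralizer_iff]
      intro g hg
      rw [hRr] at hs hg
      obtain ⟨i, rfl⟩ := Subgroup.mem_zpowers_iff.1 hg
      exact ((show Commute s r from hc s hs).zpow_right i).eq.symm
    have hcomp := MonoidHom.ker_transferSylow_isComplement' R hle
    have hmul := hcomp.card_mul
    rcases IsSimpleGroup.eq_bot_or_eq_top_of_normal (MonoidHom.transferSylow R hle).ker inferInstance
      with hb | hb
    · rw [hb, Subgroup.card_bot, one_mul] at hmul
      have htop : (R : Subgroup S) = ⊤ := Subgroup.eq_top_of_card_eq _ hmul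
      refine h.noncomm ⟨⟨fun a b => ?_⟩⟩
      rw [hRr] at htop
      obtain ⟨i, rfl⟩ := Subgroup.mem_zpowers_iff.1 (htop.ge (Subgroup.mem_top a))
      obtain ⟨j, rfl⟩ := Subgroup.mem_zpowers_iff.1 (htop.ge (Subgroup.mem_top b))
      exact (Commute.zpow_zpow_self r i j).eq
    · rw [hb, Subgroup.card_top] at hmul
      have : Nat.card (R : Subgroup S) = 1 := by
        have hpos : 0 < Nat.card S := Nat.card_pos
        exact Nat.eq_of_mul_eq_mul_left hpos (by rw [hmul, mul_one])
      have h11 : Nat.card (R : Subgroup S) = 11 := hR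
      omega
  obtain ⟨K, hK⟩ := conj_pw_of_mem_normalizer hr hs
  have hKm : K = -1 := (conj_cases h hr hr1 hK).resolve_left fun h1 => hsc (by
    rw [h1, pw_one, mul_inv_eq_iff_eq_mul] at hK
    exact hK)
  subst hKm
  obtain ⟨a, ha⟩ : ∃ a, s ^ 2 = pw r a := by
    refine centralizer_eq h hr hr1 ?_
    have := conj_pow hr hK 2
    rwa [neg_one_sq, pw_one, mul_inv_eq_iff_eq_mul] at this
  have ht2 : (s ^ 11) ^ 2 = 1 := by
    rw [← pow_mul, mul_comm, pow_mul, ha, pw, ← pow_mul, mul_comm, pow_mul, hr, one_pow]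
  have htr : s ^ 11 * r * (s ^ 11)⁻¹ = pw r (-1) := by
    rw [conj_pow hr hK 11, Odd.neg_one_pow (by decide : Odd 11)]
  have hne : (-1 : ZMod 11) ≠ 1 := neg_one_ne_one_eleven
  haveI := Fact.mk Nat.prime_two
  let σ : Equiv.Perm X := MulAction.toPermHom S X (s ^ 11)
  have h1 := modEq_fixed σ 2 (by rw [← map_pow, ht2, map_one]) Set.univ fun _ _ => Set.mem_univ _
  have e : {y : X | y ∈ Set.univ ∧ σ y = y} = {u : X | s ^ 11 • u = u} := by ext y; simp [σ]
  rw [e, Set.ncard_univ, h.card] at h1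
  unfold Nat.ModEq at h1
  have hle := ncard_fixed_le h hr hr1 htr hne
  have h0 : {u : X | s ^ 11 • u = u}.ncard ≠ 0 := fun h0 =>
    sign_fpf_false h hr ht2 fun u hu => by
      have := (Set.ncard_eq_zero (Set.toFinite _)).1 h0
      exact (this.le hu : u ∈ (∅ : Set X))
  obtain ⟨u, v, huv, he⟩ := Set.ncard_eq_two.1 (show {u : X | s ^ 11 • u = u}.ncard = 2 by omega)
  have hu : s ^ 11 • u = u := (he.ge (Set.mem_insert u _) :)
  have hv : s ^ 11 • v = v := (he.ge (Set.mem_insert_of_mem u rfl) :)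
  exact ⟨{
    r := r, t := s ^ 11, α := u, β := v, r_pow := hr, r_ne := hr1, t_pow := ht2, conj := htr
    fix_α := hu, fix_β := hv
    β_not := by
      rintro ⟨b, hb⟩
      have hb' : pw r b • u = v := hb
      have := fixed_unique h hr hr1 htr hne hu (a := b) (by rw [hb', hv])
      rw [this, pw_zero, one_smul] at hb'
      exact huv hb'
    fix_only := fun w hw => he.le (show w ∈ {u : X | s ^ 11 • u = u} from hw) }⟩

end CfsgLib.Components2.TwentyTwo
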