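import Mathlib

/-!
A finite check on 4-point lines on two 11-cycles (helper77).
-/

set_option autoImplicit false

namespace CfsgLib.Components2.TwentyTwo

/-- A point `(x, o)` is coded by `x + 11 * o`: the neighbours of `(0,0)`. -/
def nbZero (a b c d : ℕ) : List ℕ :=
  [2*a % 11, (22-2*a) % 11, 2*c % 11, (22-2*c) % 11,
   11 + (a+b) % 11, 11 + (11+a-b) % 11, 11 + (11+b-a) % 11, 11 + (22-a-b) % 11,
   11 + (c+d) % 11, 11 + (11+c-d) % 11, 11 + (11+d-c) % 11, 11 + (22-c-d) % 11]

/-- The neighbours of `(0,1)`. -/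
def nbOne (a b c d : ℕ) : List ℕ :=
  [11 + 2*b % 11, 11 + (22-2*b) % 11, 11 + 2*d % 11, 11 + (22-2*d) % 11,
   (a+b) % 11, (11+a-b) % 11, (11+b-a) % 11, (22-a-b) % 11,
   (c+d) % 11, (11+c-d) % 11, (11+d-c) % 11, (22-c-d) % 11]

/-- Translation by `k`. -/
def shift (k n : ℕ) : ℕ := if n < 11 then (n+k) % 11 else 11 + (n+k) % 11

/-- The bit mask of a list. -/
def mask (l : List ℕ) : ℕ := l.foldl (fun acc n => acc ||| 2^n) 0

/-- The number of entries lying in a mask. -/
def countIn (l : List ℕ) (m : ℕ) : ℕ := l.countP (fun n => m.testBit n)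

/-- All non-neighbours have the same number of common neighbours. -/
def check (a b c d : ℕ) : Bool :=
  let l := nbZero a b c d
  let m := mask l
  decide l.Nodup && (!(m.testBit 0) && !(m.testBit 11)) &&
    (List.range 11).all fun x => x == 0 || m.testBit x ||
      (countIn ((nbZero a b c d).map (shift x)) m == countIn (nbOne a b c d) m)

theorem check_false : ∀ a < 5, ∀ b < 5, ∀ c < 5, ∀ d < 5,
    check (a+1) (b+1) (c+1) (d+1) = false := by decide +kernel

theorem testBit_foldl (l : List ℕ) : ∀ (acc i : ℕ),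
    (l.foldl (fun acc n => acc ||| 2^n) acc).testBit i = (acc.testBit i || decide (i ∈ l)) := by
  induction l with
  | nil => simp
  | cons n l ih =>
    intro acc i
    rw [List.foldl_cons, ih, Nat.testBit_or, Nat.testBit_two_pow]
    by_cases h : i = n
    · subst h; simp
    · simp [h, Ne.symm h]

theorem testBit_mask (l : List ℕ) (i : ℕ) : (mask l).testBit i = decide (i ∈ l) := by
  simp [mask, testBit_foldl]

end CfsgLib.Components2.TwentyTwo
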