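import Cfsg.Agent.Lib.Components2.TwentyTwo.Setup

/-!
A simple group with 22 Sylow 3-subgroups: lines of the intersection geometry (helper77).
-/

set_option autoImplicit false

open scoped Pointwise

namespace CfsgLib.Components2.TwentyTwo

variable {S : Type*} [Group S] [Finite S] [Fact (Nat.Prime 3)]

local notation "X" => Sylow 3 S

/-- The neighbours of `x`. -/
def Gam (x : X) : Set X := {Q | Adj x Q}

/-- The non-neighbours of `x`. -/
def Far (x : X) : Set X := {Q | x ≠ Q ∧ ¬ Adj x Q}

omit [Finite S] [Fact (Nat.Prime 3)] in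
theorem left_mem_line (x R : X) : x ∈ Line x R :=
  (inf_le_left : (x : Subgroup S) ⊓ R ≤ x)

omit [Finite S] [Fact (Nat.Prime 3)] in
theorem right_mem_line (x R : X) : R ∈ Line x R :=
  (inf_le_right : (x : Subgroup S) ⊓ R ≤ R)

/-- A saturated set all of whose orbits have `c` points has cardinality divisible by `c`. -/
theorem dvd_of_saturated (x : X) (Z : Set X) (hsat : ∀ Q ∈ Z, orb x Q ⊆ Z) {c : ℕ}
    (hc : ∀ Q ∈ Z, (orb x Q).ncard = c) : c ∣ Z.ncard := by
  classical
  rw [Set.ncard_eq_toFinset_card Z Z.toFinite,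
    Finset.card_eq_sum_card_image (fun Q => orb x Q) Z.toFinite.toFinset]
  refine Finset.dvd_sum fun B hB => ?_
  obtain ⟨Q, hQ, rfl⟩ := Finset.mem_image.1 hB
  rw [Set.Finite.mem_toFinset] at hQ
  rw [show Z.toFinite.toFinset.filter (fun T => orb x T = orb x Q) = (orb x Q).toFinite.toFinset from ?_,
    ← Set.ncard_eq_toFinset_card _, hc Q hQ]
  ext T
  rw [Finset.mem_filter, Set.Finite.mem_toFinset, Set.Finite.mem_toFinset]
  exact ⟨fun hT => hT.2 ▸ self_mem_orb x T, fun hT => ⟨hsat Q hQ hT, orb_eq_of_mem hT⟩⟩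

theorem adj_of_mem_orb {x Q T : X} (hne : x ≠ Q) (hT : T ∈ orb x Q) : Adj x T ↔ Adj x Q := by
  have h1 : (orb x T).ncard = (orb x Q).ncard := by rw [orb_eq_of_mem hT]
  exact ⟨fun hA => ⟨hne, h1 ▸ hA.2⟩, fun hA => ⟨ne_of_mem_orb hne hT, h1.symm ▸ hA.2⟩⟩

theorem gam_smul (g : S) (x : X) : Gam (g • x) = (g • ·) '' Gam x := by
  ext T
  constructor
  · intro hT
    refine ⟨g⁻¹ • T, ?_, smul_inv_smul g T⟩
    have := adj_smul g⁻¹ hT
    rwa [inv_smul_smul] at this
  · rintro ⟨T, hT, rfl⟩
    exact adj_smul g hT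

theorem ncard_gam (x z : X) : (Gam x).ncard = (Gam z).ncard := by
  obtain ⟨g, rfl⟩ := MulAction.exists_smul_eq S x z
  rw [gam_smul, Set.ncard_image_of_injective _ (MulAction.injective g)]

omit [Fact (Nat.Prime 3)] in
theorem line_smul (g : S) (x R : X) : Line (g • x) (g • R) = (g • ·) '' Line x R := by
  ext T
  constructor
  · intro hT
    refine ⟨g⁻¹ • T, ?_, smul_inv_smul g T⟩
    have := mem_line_smul g⁻¹ hT
    rwa [inv_smul_smul, inv_smul_smul] at this
  · rintro ⟨T, hT, rfl⟩
    exact mem_line_smul g hT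

omit [Fact (Nat.Prime 3)] in
theorem ncard_line_smul (g : S) (x R : X) : (Line (g • x) (g • R)).ncard = (Line x R).ncard := by
  rw [line_smul, Set.ncard_image_of_injective _ (MulAction.injective g)]

section
variable (h : Hyp S)
include h

theorem line_eq {x R z w : X} (hA : Adj x R) (hz : z ∈ Line x R) (hw : w ∈ Line x R) (hne : z ≠ w) :
    Line z w = Line x R := by
  have := (inter_eq_of_mem_line h hA hz hw hne).1
  ext T
  show (z : Subgroup S) ⊓ w ≤ T ↔ (x : Subgroup S) ⊓ R ≤ T
  rw [this]

theorem line_subset {x R : X} (hA : Adj x R) : Line x R \ {x} ⊆ Gam x := fun T hT =>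
  (inter_eq_of_mem_line h hA (left_mem_line x R) hT.1 (fun he => hT.2 he.symm)).2

theorem three_dvd_line {x R : X} (hA : Adj x R) : 3 ∣ (Line x R \ {x}).ncard := by
  refine dvd_of_saturated x _ (fun T hT U hU => ?_) fun T hT => (line_subset h hA hT).2
  have hne : x ≠ T := fun he => hT.2 he.symm
  refine ⟨?_, fun he => ne_of_mem_orb hne hU (Set.mem_singleton_iff.1 he).symm⟩
  rw [← line_eq h hA (left_mem_line x R) hT.1 hne]
  exact orb_subset_line h (line_subset h hA hT) hU

theorem ncard_line {x R : X} (hA : Adj x R) :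
    4 ≤ (Line x R).ncard ∧ (Line x R).ncard % 3 = 1 ∧ (Line x R \ {x}).ncard + 1 = (Line x R).ncard := by
  have h1 := Set.ncard_sdiff_singleton_add_one (left_mem_line x R) (Line x R).toFinite
  obtain ⟨j, hj⟩ := three_dvd_line h hA
  have h2 : 0 < (Line x R \ {x}).ncard := (Set.ncard_pos (Set.toFinite _)).2
    ⟨R, right_mem_line x R, fun he => hA.1 (Set.mem_singleton_iff.1 he).symm⟩
  omega

theorem ncard_gam_add (x : X) : (Gam x).ncard + (Far x).ncard = 21 := by
  have hdisj : Disjoint (Gam x) (Far x) := Set.disjoint_left.2 fun T hT hT' => hT'.2 hT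
  rw [← Set.ncard_union_eq hdisj]
  have : Gam x ∪ Far x = Set.univ \ {x} := by
    ext T
    refine ⟨fun hT => ⟨Set.mem_univ T, fun he => ?_⟩, fun hT => ?_⟩
    · rcases hT with hT | hT <;> exact hT.1 (Set.mem_singleton_iff.1 he).symm
    · by_cases hA : Adj x T
      · exact Or.inl hA
      · exact Or.inr ⟨fun he => hT.2 he.symm, hA⟩
  rw [this, Set.ncard_sdiff_singleton_of_mem (Set.mem_univ x), Set.ncard_univ, h.card]

theorem nine_dvd_far (x : X) : 9 ∣ (Far x).ncard := by
  refine dvd_of_saturated x (Far x) (fun T hT U hU => ⟨ne_of_mem_orb hT.1 hU, fun hA =>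
    hT.2 ((adj_of_mem_orb hT.1 hU).1 hA)⟩) fun T hT => ?_
  exact (orb_ncard h hT.1).resolve_left fun h3 => hT.2 ⟨hT.1, h3⟩

theorem card_three_of_bot {x R : X} (hA : Adj x R) (hb : (x : Subgroup S) ⊓ R = ⊥) : Nat.card x = 3 := by
  have := (adj_iff h hA.1).1 hA
  rw [hb, Subgroup.card_bot, one_mul] at this
  exact this.symm

theorem far_eq_empty (x : X) (hM : Nat.card x = 3) : Far x = ∅ :=
  Set.eq_empty_iff_forall_notMem.2 fun _ hT => hT.2 (all_adj_of_card h x hM hT.1)

/-- A line containing all neighbours forces Sylow order three. -/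
theorem card_three_of_gam_subset {x R : X} (hA : Adj x R) (hsub : Gam x ⊆ Line x R) :
    Nat.card x = 3 := by
  refine card_three_of_bot h hA (inter_eq_bot h hA fun n hn => hsub ?_)
  have := adj_smul n hA
  rwa [hn] at this

theorem ncard_far_cases (x : X) (hM : Nat.card x ≠ 3) : (Far x).ncard = 0 ∨ (Far x).ncard = 9 := by
  obtain ⟨j, hj⟩ := nine_dvd_far h x
  have hsum := ncard_gam_add h x
  by_contra hc
  have h18 : (Gam x).ncard = 3 := by omega
  obtain ⟨Q, hQ⟩ : (Gam x).Nonempty := Set.nonempty_of_ncard_ne_zero (by omega)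
  have hQ' : Adj x Q := hQ
  refine hM (card_three_of_gam_subset h hQ' ?_)
  have he : orb x Q = Gam x := Set.eq_of_subset_of_ncard_le
    (fun T hT => (adj_of_mem_orb hQ'.1 hT).2 hQ') (by rw [hQ'.2, h18])
  exact he ▸ orb_subset_line h hQ'

theorem dvd_pairs {s : ℕ} (hs : ∀ x R : X, Adj x R → (Line x R).ncard = s) (x₀ : X) :
    s * (s - 1) ∣ 22 * (Gam x₀).ncard := by
  classical
  letI := Fintype.ofFinite X
  let P : Finset (X × X) := Finset.univ.filter fun q => Adj q.1 q.2
  have hP : P.card = 22 * (Gam x₀).ncard := by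
    rw [Finset.card_eq_sum_card_fiberwise (f := Prod.fst) (t := Finset.univ) (fun _ _ => Finset.mem_univ _),
      Finset.sum_congr rfl (fun x _ => (?_ : _ = (Gam x₀).ncard)), Finset.sum_const, smul_eq_mul,
      Finset.card_univ, ← Nat.card_eq_fintype_card, h.card]
    rw [← ncard_gam x x₀, Set.ncard_eq_toFinset_card _ (Gam x).toFinite]
    refine Finset.card_nbij' (fun q => q.2) (fun T => (x, T)) ?_ ?_ ?_ ?_
    · intro q hq
      simp only [Finset.mem_coe, Finset.mem_filter] at hq
      simp only [Finset.mem_coe, Set.Finite.mem_toFinset]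
      obtain ⟨hq1, rfl⟩ := hq
      exact (Finset.mem_filter.1 hq1).2
    · intro T hT
      simp only [Finset.mem_coe, Set.Finite.mem_toFinset] at hT
      simp only [Finset.mem_coe, Finset.mem_filter]
      exact ⟨Finset.mem_filter.2 ⟨Finset.mem_univ _, hT⟩, trivial⟩
    · intro q hq
      simp only [Finset.mem_coe, Finset.mem_filter] at hq
      exact Prod.ext hq.2.symm rfl
    · intro T _
      rfl
  rw [← hP, Finset.card_eq_sum_card_image (fun q => Line q.1 q.2) P]
  refine Finset.dvd_sum fun L hL => ?_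
  obtain ⟨⟨a, b⟩, hab, rfl⟩ := Finset.mem_image.1 hL
  have hab' : Adj a b := (Finset.mem_filter.1 hab).2
  have : P.filter (fun q => Line q.1 q.2 = Line a b) = (Line a b).toFinite.toFinset.offDiag := by
    ext ⟨z, w⟩
    simp only [Finset.mem_filter, Finset.mem_offDiag, Set.Finite.mem_toFinset]
    constructor
    · rintro ⟨hzw, he⟩
      exact ⟨he ▸ left_mem_line z w, he ▸ right_mem_line z w, (Finset.mem_filter.1 hzw).2.1⟩
    · rintro ⟨hz, hw, hne⟩
      exact ⟨Finset.mem_filter.2 ⟨Finset.mem_univ _, (inter_eq_of_mem_line h hab' hz hw hne).2⟩,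
        line_eq h hab' hz hw hne⟩
  rw [this, Finset.offDiag_card, ← Set.ncard_eq_toFinset_card, hs a b hab']
  rw [Nat.mul_sub, mul_one]

theorem parts_disjoint {x z w : X} (hz : Adj x z) (hw : Adj x w) (hne : Line x z ≠ Line x w) :
    Disjoint (Line x z \ {x}) (Line x w \ {x}) := by
  rw [Set.disjoint_left]
  intro T hT hT'
  have hxT : x ≠ T := fun he => hT.2 he.symm
  exact hne ((line_eq h hz (left_mem_line x z) hT.1 hxT).symm.trans
    (line_eq h hw (left_mem_line x w) hT'.1 hxT))

/-- Every pair cannot be adjacent unless the Sylow subgroups have order three. -/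
theorem far_ne_zero (x₀ : X) (hM : Nat.card x₀ ≠ 3) : (Far x₀).ncard ≠ 0 := by
  classical
  intro h0
  have hsum : (Gam x₀).ncard = 21 := by have := ncard_gam_add h x₀; omega
  have hall : ∀ x R : X, x ≠ R → Adj x R := by
    intro x R hne
    by_contra hA
    have h1 := ncard_gam_add h x
    rw [ncard_gam x x₀, hsum] at h1
    have hmem : R ∈ Far x := ⟨hne, hA⟩
    rw [(Set.ncard_eq_zero (Set.toFinite _)).1 (by omega : (Far x).ncard = 0)] at hmem
    exact hmem
  by_cases h4 : ∀ x R : X, Adj x R → (Line x R).ncard = 4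
  · have := dvd_pairs h h4 x₀
    rw [hsum] at this
    norm_num at this
  push Not at h4
  obtain ⟨a, b, hab, hne4⟩ := h4
  have h7 : 7 ≤ (Line a b).ncard := by have := ncard_line h hab; omega
  obtain ⟨x, hx⟩ : ∃ x, x ∉ Line a b := by
    by_contra hc
    push Not at hc
    refine hM ((card_eq x₀ a).trans (card_three_of_gam_subset h hab fun T _ => hc T))
  obtain ⟨g, hg⟩ := MulAction.exists_smul_eq S a x
  have hM' : Adj x (g • b) := hg ▸ adj_smul g hab
  have h7' : 6 ≤ (Line x (g • b) \ {x}).ncard := by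
    have h1 := (ncard_line h hM').2.2
    have h2 := ncard_line_smul g a b
    rw [hg] at h2
    omega
  have hzx : ∀ z ∈ Line a b, Adj x z := fun z hz => hall x z fun he => hx (he ▸ hz)
  have hdis : ∀ z ∈ Line a b, ∀ w ∈ Line a b, z ≠ w → Line x z ≠ Line x w := by
    intro z hz w hw hne he
    apply hx
    rw [← line_eq h hab hz hw hne,
      line_eq h (hzx z hz) (right_mem_line x z) (he ▸ right_mem_line x w) hne]
    exact left_mem_line x z
  let F := (Line a b).toFinite.toFinset
  let f : X → Finset X := fun z => (Line x z \ {x}).toFinite.toFinset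
  have hFd : ∀ z ∈ F, ∀ w ∈ F, z ≠ w → Disjoint (f z) (f w) := by
    intro z hz w hw hne
    rw [Set.Finite.mem_toFinset] at hz hw
    exact Set.Finite.disjoint_toFinset.2
      (parts_disjoint h (hzx z hz) (hzx w hw) (hdis z hz w hw hne))
  have hf3 : ∀ z ∈ F, 3 ≤ (f z).card := fun z hz => by
    rw [Set.Finite.mem_toFinset] at hz
    rw [← Set.ncard_eq_toFinset_card]
    have := ncard_line h (hzx z hz)
    omega
  letI := Fintype.ofFinite X
  have huniv : (Finset.univ.erase x).card = 21 := by
    rw [Finset.card_erase_of_mem (Finset.mem_univ _), Finset.card_univ, ← Nat.card_eq_fintype_card, h.card]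
  have hsub : ∀ z, f z ⊆ Finset.univ.erase x := fun z T hT => by
    rw [Set.Finite.mem_toFinset] at hT
    exact Finset.mem_erase.2 ⟨hT.2, Finset.mem_univ _⟩
  have hFc : 7 ≤ F.card := by rw [← Set.ncard_eq_toFinset_card]; exact h7
  by_cases hmeet : ∃ z ∈ Line a b, z ∈ Line x (g • b)
  · obtain ⟨z, hz, hzM⟩ := hmeet
    have hL : Line x z = Line x (g • b) := line_eq h hM' (left_mem_line _ _) hzM fun he => hx (he ▸ hz)
    have hzF : z ∈ F := (Set.Finite.mem_toFinset _).2 hz
    have h6 : 6 ≤ (f z).card := by rw [← Set.ncard_eq_toFinset_card, hL]; exact h7'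
    have hcard := Finset.card_le_card (Finset.biUnion_subset.2 fun z (_ : z ∈ F) => hsub z)
    rw [Finset.card_biUnion hFd, huniv, ← Finset.add_sum_erase F _ hzF] at hcard
    have := Finset.card_nsmul_le_sum (F.erase z) (fun z => (f z).card) 3
      fun w hw => hf3 w (Finset.mem_of_mem_erase hw)
    rw [Finset.card_erase_of_mem hzF, smul_eq_mul] at this
    omega
  · push Not at hmeet
    let M' := (Line x (g • b) \ {x}).toFinite.toFinset
    have hd : Disjoint (F.biUnion f) M' := by
      rw [Finset.disjoint_biUnion_left]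
      intro z hz
      rw [Set.Finite.mem_toFinset] at hz
      refine Set.Finite.disjoint_toFinset.2 (parts_disjoint h (hzx z hz) hM' fun he => hmeet z hz ?_)
      rw [← he]; exact right_mem_line x z
    have hcard : (F.biUnion f ∪ M').card ≤ 21 := huniv ▸ Finset.card_le_card (Finset.union_subset
      (Finset.biUnion_subset.2 fun z _ => hsub z) fun T hT => by
        rw [Set.Finite.mem_toFinset] at hT
        exact Finset.mem_erase.2 ⟨hT.2, Finset.mem_univ _⟩)
    rw [Finset.card_union_of_disjoint hd, Finset.card_biUnion hFd, ← Set.ncard_eq_toFinset_card] at hcard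
    have := Finset.card_nsmul_le_sum F (fun z => (f z).card) 3 hf3
    rw [smul_eq_mul] at this
    omega

/-- With nine non-neighbours every line has four points. -/
theorem line_four (x₀ : X) (hM : Nat.card x₀ ≠ 3) (h9 : (Far x₀).ncard = 9) {x R : X} (hA : Adj x R) :
    (Line x R).ncard = 4 := by
  have h12 : ∀ z : X, (Gam z).ncard = 12 := fun z => by
    rw [ncard_gam z x₀]; have := ncard_gam_add h x₀; omega
  by_contra h4
  have hs := ncard_line h hA
  have hL : Line x R \ {x} ⊆ Gam x := line_subset h hA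
  obtain ⟨n, hnx, hn⟩ : ∃ n : S, n • x = x ∧ n • R ∉ Line x R := by
    by_contra hc
    push Not at hc
    exact hM ((card_eq x₀ x).trans (card_three_of_bot h hA (inter_eq_bot h hA hc)))
  have hA2 : Adj x (n • R) := by
    have := adj_smul n hA
    rwa [hnx] at this
  have hne : Line x R ≠ Line x (n • R) := fun he => hn (he ▸ right_mem_line x (n • R))
  have hc2 : (Line x (n • R)).ncard = (Line x R).ncard := by
    have h2 := ncard_line_smul n x R
    rwa [hnx] at h2
  have hs2 := ncard_line h hA2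
  have hd := parts_disjoint h hA hA2 hne
  have hsub : (Line x R \ {x}) ∪ (Line x (n • R) \ {x}) ⊆ Gam x :=
    Set.union_subset hL (line_subset h hA2)
  have hle := Set.ncard_le_ncard hsub
  rw [Set.ncard_union_eq hd, h12] at hle
  have h7 : (Line x R).ncard = 7 := by omega
  have heq : (Line x R \ {x}) ∪ (Line x (n • R) \ {x}) = Gam x :=
    Set.eq_of_subset_of_ncard_le hsub (by rw [Set.ncard_union_eq hd, h12]; omega)
  have hall : ∀ T, Adj x T → (Line x T).ncard = 7 := by
    intro T hT
    rcases heq.ge (show T ∈ Gam x from hT) with hm | hm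
    · rw [line_eq h hA (left_mem_line _ _) hm.1 hT.1, h7]
    · rw [line_eq h hA2 (left_mem_line _ _) hm.1 hT.1, hc2, h7]
  have hall' : ∀ z T : X, Adj z T → (Line z T).ncard = 7 := by
    intro z T hT
    obtain ⟨g, hg⟩ := MulAction.exists_smul_eq S z x
    have h2 := adj_smul g hT
    rw [hg] at h2
    have h3 := ncard_line_smul g z T
    rw [hg] at h3
    rw [← h3]
    exact hall _ h2
  have := dvd_pairs h hall' x
  rw [h12] at this
  norm_num at this

end

end CfsgLib.Components2.TwentyTwo
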