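import Cfsg.Agent.Lib.Components2.TwentyTwo.Eleven
import Cfsg.Agent.Lib.Components2.TwentyTwo.Lines
import Cfsg.Agent.Lib.Components2.TwentyTwo.Graph

/-!
A simple group with 22 Sylow 3-subgroups: nine non-neighbours are impossible (helper77).
-/

set_option autoImplicit false

open scoped Pointwise

namespace CfsgLib.Components2.TwentyTwo

variable {S : Type*} [Group S]

local notation "X" => Sylow 3 S

/-- The base point of an orbit. -/
def Config.base (c : Config S) (o : Bool) : X := if o then c.β else c.α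

/-- A point in coordinates. -/
def Config.pt (c : Config S) (o : Bool) (a : ZMod 11) : X := pw c.r a • c.base o

/-- A point from its code. -/
def Config.dec (c : Config S) (n : ℕ) : X := if n < 11 then c.pt false n else c.pt true n

/-- `L` is a line. -/
def IsLine (L : Set X) : Prop := ∃ x R : X, Adj x R ∧ L = Line x R

/-- A line stable under the involution. -/
def Config.Fixed (c : Config S) (L : Set X) : Prop := IsLine L ∧ ∀ T ∈ L, c.t • T ∈ L

/-- Translate of a set of points. -/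
def Config.tr (c : Config S) (k : ZMod 11) (L : Set X) : Set X := (pw c.r k • ·) '' L

/-- `2 ≠ 0` modulo 11. -/
theorem two_ne_zero_eleven : (2 : ZMod 11) ≠ 0 := by decide

variable [Finite S] [Fact (Nat.Prime 3)] (h : Hyp S) (c : Config S)

theorem Config.t_smul_t (T : X) : c.t • c.t • T = T := by
  rw [smul_smul, ← pow_two, c.t_pow, one_smul]

theorem Config.t_smul_pt (o : Bool) (a : ZMod 11) : c.t • c.pt o a = c.pt o (-a) := by
  have hb : c.t • c.base o = c.base o := by
    unfold Config.base; cases o <;> simp [c.fix_α, c.fix_β]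
  have h1 := conj_pw c.r_pow c.conj a
  rw [neg_one_mul] at h1
  show c.t • pw c.r a • c.base o = pw c.r (-a) • c.base o
  conv_rhs => rw [← h1, mul_smul, mul_smul, inv_smul_eq_iff.2 hb.symm]

theorem Config.shift_pt (o : Bool) (k a : ZMod 11) : pw c.r k • c.pt o a = c.pt o (k + a) := by
  show pw c.r k • pw c.r a • c.base o = pw c.r (k + a) • c.base o
  rw [smul_smul, pw_add c.r_pow]

theorem Config.pt_zero (o : Bool) : c.pt o 0 = c.base o := by
  rw [Config.pt, pw_zero, one_smul]

theorem Config.tr_zero (L : Set X) : c.tr 0 L = L := by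
  simp [Config.tr, pw_zero]

theorem Config.tr_tr (j k : ZMod 11) (L : Set X) : c.tr j (c.tr k L) = c.tr (j + k) L := by
  simp only [Config.tr, Set.image_image, smul_smul, ← pw_add c.r_pow]

include h

theorem Config.pt_injective {o o' : Bool} {a b : ZMod 11} (he : c.pt o a = c.pt o' b) :
    o = o' ∧ a = b := by
  have key : ∀ {a b : ZMod 11}, c.pt false a ≠ c.pt true b := by
    intro a b he
    refine c.β_not ⟨-b + a, ?_⟩
    show pw c.r (-b + a) • c.α = c.β
    have he' : pw c.r a • c.α = pw c.r b • c.β := he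
    rw [pw_add c.r_pow, mul_smul, he', smul_smul, ← pw_add c.r_pow, neg_add_cancel, pw_zero, one_smul]
  cases o <;> cases o'
  · exact ⟨rfl, pw_smul_inj h c.r_pow c.r_ne _ he⟩
  · exact absurd he key
  · exact absurd he.symm key
  · exact ⟨rfl, pw_smul_inj h c.r_pow c.r_ne _ he⟩

theorem Config.pt_surjective (T : X) : ∃ o a, c.pt o a = T := by
  rcases cover h c.r_pow c.r_ne c.β_not T with ⟨a, ha⟩ | ⟨a, ha⟩
  · exact ⟨false, a, ha⟩
  · exact ⟨true, a, ha⟩

omit c in
theorem IsLine.two {L : Set X} (hL : IsLine L) {z w : X} (hz : z ∈ L) (hw : w ∈ L) (hne : z ≠ w) :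
    Adj z w ∧ L = Line z w := by
  obtain ⟨x, R, hA, rfl⟩ := hL
  exact ⟨(inter_eq_of_mem_line h hA hz hw hne).2, (line_eq h hA hz hw hne).symm⟩

omit c in
theorem IsLine.unique {L L' : Set X} (hL : IsLine L) (hL' : IsLine L') {z w : X} (hz : z ∈ L)
    (hw : w ∈ L) (hz' : z ∈ L') (hw' : w ∈ L') (hne : z ≠ w) : L = L' :=
  (IsLine.two h hL hz hw hne).2.trans (IsLine.two h hL' hz' hw' hne).2.symm

omit c h in
theorem IsLine.image {L : Set X} (hL : IsLine L) (g : S) : IsLine ((g • ·) '' L) := by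
  obtain ⟨x, R, hA, rfl⟩ := hL
  exact ⟨g • x, g • R, adj_smul g hA, (line_smul g x R).symm⟩

variable (hM : Nat.card c.α ≠ 3) (h9 : (Far c.α).ncard = 9)
include hM h9

theorem Config.ncard_gam (z : X) : (Gam z).ncard = 12 := by
  rw [TwentyTwo.ncard_gam z c.α]
  have := ncard_gam_add h c.α
  omega

theorem Config.ncard_line {L : Set X} (hL : IsLine L) : L.ncard = 4 := by
  obtain ⟨x, R, hA, rfl⟩ := hL
  exact line_four h c.α hM h9 hA

theorem Config.β_far : c.β ∈ Far c.α := by
  haveI := Fact.mk Nat.prime_two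
  have h1 := modEq_fixed (MulAction.toPermHom S X c.t) 2 (by rw [← map_pow, c.t_pow, map_one])
    (Far c.α) fun T hT => ⟨fun he => hT.1 (MulAction.injective c.t (c.fix_α.trans he)), fun hA => hT.2 (by
      have h2 := adj_smul c.t hA
      show Adj c.α T
      have e : c.t • (MulAction.toPermHom S X c.t) T = T := c.t_smul_t T
      rw [c.fix_α, e] at h2
      exact h2)⟩
  rw [h9] at h1
  obtain ⟨T, hT⟩ : {y | y ∈ Far c.α ∧ (MulAction.toPermHom S X c.t) y = y}.Nonempty := by
    refine Set.nonempty_of_ncard_ne_zero fun h0 => ?_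
    rw [h0] at h1
    simp [Nat.ModEq] at h1
  rcases c.fix_only T hT.2 with rfl | rfl
  · exact absurd rfl hT.1.1
  · exact hT.1

theorem Config.fixed_base {L : Set X} (hL : c.Fixed L) (o : Bool) : c.base o ∉ L := by
  haveI := Fact.mk Nat.prime_two
  intro hb
  have hbt : c.t • c.base o = c.base o := by
    unfold Config.base; cases o <;> simp [c.fix_α, c.fix_β]
  have h1 := modEq_fixed (MulAction.toPermHom S X c.t) 2 (by rw [← map_pow, c.t_pow, map_one])
    (L \ {c.base o}) fun T hT => ⟨hL.2 T hT.1, fun he => hT.2 (MulAction.injective c.t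
      ((Set.mem_singleton_iff.1 he).trans hbt.symm))⟩
  rw [Set.ncard_sdiff_singleton_of_mem hb, c.ncard_line h hM h9 hL.1] at h1
  obtain ⟨T, ⟨hT, hTb⟩, hTf⟩ :
      {y | y ∈ L \ {c.base o} ∧ (MulAction.toPermHom S X c.t) y = y}.Nonempty := by
    refine Set.nonempty_of_ncard_ne_zero fun h0 => ?_
    rw [h0] at h1
    simp [Nat.ModEq] at h1
  have hTb' : T ≠ c.base o := hTb
  have hA := (IsLine.two h hL.1 hb hT (Ne.symm hTb')).1
  have hfar := c.β_far h hM h9
  rcases c.fix_only T hTf with rfl | rfl <;> cases o <;> simp [Config.base] at hA hTb'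
  · exact hfar.2 (adj_symm h hA)
  · exact hfar.2 hA

theorem Config.tr_fixed_eq_zero {L : Set X} (hL : c.Fixed L) {k : ZMod 11}
    (hk : c.Fixed (c.tr k L)) : k = 0 := by
  have hinv : ∀ T ∈ L, pw c.r (-(2 * k)) • T ∈ L := by
    intro T hT
    obtain ⟨o, a, rfl⟩ := c.pt_surjective h T
    have h1 := hL.2 _ hT
    obtain ⟨U, hU, hU'⟩ := hk.2 _ ⟨_, h1, rfl⟩
    obtain ⟨o', b, rfl⟩ := c.pt_surjective h U
    simp only [c.t_smul_pt, c.shift_pt] at hU'
    obtain ⟨rfl, hb⟩ := c.pt_injective h hU'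
    rw [c.shift_pt]
    rwa [show -(2 * k) + a = b by linear_combination -hb]
  obtain ⟨x, R, hA, hLe⟩ := hL.1
  have hx : x ∈ L := hLe ▸ left_mem_line x R
  have hall : ∀ n : ℕ, pw c.r ((n : ZMod 11) * -(2 * k)) • x ∈ L := by
    intro n
    induction n with
    | zero => simpa [pw_zero] using hx
    | succ n ih =>
      rw [show ((n + 1 : ℕ) : ZMod 11) * -(2 * k) = -(2 * k) + (n : ZMod 11) * -(2 * k) by push_cast; ring,
        pw_add c.r_pow, mul_smul]
      exact hinv _ ih
  by_contra hk0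
  haveI := Fact.mk (by norm_num : Nat.Prime 11)
  have hd : -(2 * k) ≠ 0 := neg_ne_zero.2 (mul_ne_zero two_ne_zero_eleven hk0)
  have hinj : Function.Injective fun a : ZMod 11 => pw c.r (a * -(2 * k)) • x :=
    fun a b he => mul_right_cancel₀ hd (pw_smul_inj h c.r_pow c.r_ne x he)
  have := Set.ncard_le_ncard (s := Set.range fun a : ZMod 11 => pw c.r (a * -(2 * k)) • x) (t := L) (by
    rintro _ ⟨a, rfl⟩
    have := hall a.val
    rwa [ZMod.natCast_zmod_val] at this)
  rw [← Nat.card_coe_set_eq, Nat.card_range_of_injective hinj, Nat.card_zmod,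
    c.ncard_line h hM h9 hL.1] at this
  omega

omit hM h9 in
theorem Config.centre {L : Set X} (hL : IsLine L) {o : Bool} {u v : ZMod 11} (hu : c.pt o u ∈ L)
    (hv : c.pt o v ∈ L) (hne : u ≠ v) : c.Fixed (c.tr (5 * (u + v)) L) := by
  have h11 : ∀ u v : ZMod 11, -(5 * (u + v) + u) = 5 * (u + v) + v := by decide +kernel
  set k := 5 * (u + v) with hk
  have hL' : IsLine (c.tr k L) := hL.image _
  refine ⟨hL', fun T hT => ?_⟩
  have h1 : c.pt o (k + u) ∈ c.tr k L := ⟨_, hu, c.shift_pt o k u⟩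
  have h2 : c.pt o (k + v) ∈ c.tr k L := ⟨_, hv, c.shift_pt o k v⟩
  have he : (c.t • ·) '' c.tr k L = c.tr k L := by
    refine IsLine.unique h (hL'.image c.t) hL' (z := c.pt o (k + v)) (w := c.pt o (k + u))
      ⟨_, h1, ?_⟩ ⟨_, h2, ?_⟩ h2 h1 fun e => hne ?_
    · show c.t • c.pt o (k + u) = _
      rw [c.t_smul_pt, h11]
    · show c.t • c.pt o (k + v) = _
      rw [c.t_smul_pt, hk, add_comm u v, h11]
    · exact (add_left_cancel (c.pt_injective h e).2).symm
  exact he ▸ ⟨T, hT, rfl⟩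

theorem Config.fixed_neg {L : Set X} (hL : c.Fixed L) {o : Bool} {u v : ZMod 11} (hu : c.pt o u ∈ L)
    (hv : c.pt o v ∈ L) (hne : u ≠ v) : v = -u := by
  have h1 := c.tr_fixed_eq_zero h hM h9 hL (c.centre h hL.1 hu hv hne)
  have h2 : ∀ u v : ZMod 11, 5 * (u + v) = 0 → v = -u := by decide +kernel
  exact h2 u v h1

theorem Config.exists_fixed {L : Set X} (hL : IsLine L) : ∃ k, c.Fixed (c.tr k L) := by
  classical
  by_contra hc
  push Not at hc
  have hone : ∀ o u v, c.pt o u ∈ L → c.pt o v ∈ L → u = v := fun o u v hu hv => by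
    by_contra hne
    exact hc _ (c.centre h hL hu hv hne)
  have hc4 := c.ncard_line h hM h9 hL
  choose ty ct hct using fun T : L => c.pt_surjective h T.1
  have hinj : Function.Injective ty := by
    intro A B he
    have hA : c.pt (ty A) (ct A) ∈ L := by rw [hct A]; exact A.2
    have hB : c.pt (ty A) (ct B) ∈ L := by rw [he, hct B]; exact B.2
    apply Subtype.ext
    rw [← hct A, ← hct B, ← he, hone _ _ _ hA hB]
  have := Nat.card_le_card_of_injective ty hinj
  rw [Nat.card_coe_set_eq, hc4, Nat.card_eq_fintype_card, Fintype.card_bool] at this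
  omega

/-- A stable line is `{±a} ∪ {±b}`. -/
theorem Config.fixed_shape {L : Set X} (hL : c.Fixed L) : ∃ i < 5, ∃ j < 5,
    L = {c.pt false (i + 1 : ℕ), c.pt false (-((i + 1 : ℕ) : ZMod 11)),
      c.pt true (j + 1 : ℕ), c.pt true (-((j + 1 : ℕ) : ZMod 11))} := by
  classical
  have hneg : ∀ o a, c.pt o a ∈ L → c.pt o (-a) ∈ L := fun o a ha => c.t_smul_pt o a ▸ hL.2 _ ha
  have hc4 := c.ncard_line h hM h9 hL.1
  have hex : ∀ o, ∃ i < 5, c.pt o (i + 1 : ℕ) ∈ L := by
    intro o
    obtain ⟨a, ha⟩ : ∃ a, c.pt o a ∈ L := by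
      by_contra hc
      push Not at hc
      obtain ⟨T, hT⟩ : L.Nonempty := Set.nonempty_of_ncard_ne_zero (by omega)
      obtain ⟨o', a, rfl⟩ := c.pt_surjective h T
      have ho : ∀ o'' b, c.pt o'' b ∈ L → o'' = o' := fun o'' b hb => by
        by_contra hne
        have : o'' = o ∨ o' = o := by revert hne; cases o'' <;> cases o' <;> cases o <;> simp
        rcases this with rfl | rfl
        · exact hc b hb
        · exact hc a hT
      have hsub : L ⊆ {c.pt o' a, c.pt o' (-a)} := by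
        intro U hU
        obtain ⟨o'', b, rfl⟩ := c.pt_surjective h U
        obtain rfl := ho o'' b hU
        by_cases hb : b = a
        · exact Or.inl (by rw [hb])
        · exact Or.inr (by rw [c.fixed_neg h hM h9 hL hT hU (Ne.symm hb)]; rfl)
      have := (Set.ncard_le_ncard hsub).trans (Set.ncard_insert_le _ _)
      rw [Set.ncard_singleton, hc4] at this
      omega
    have ha0 : a ≠ 0 := fun h0 => c.fixed_base h hM h9 hL o (by rw [← c.pt_zero, ← h0]; exact ha)
    have key : ∀ a : ZMod 11, a ≠ 0 →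
        ∃ i : Fin 5, ((i.val + 1 : ℕ) : ZMod 11) = a ∨ ((i.val + 1 : ℕ) : ZMod 11) = -a := by
      decide +kernel
    obtain ⟨i, hi | hi⟩ := key a ha0
    · exact ⟨i, i.2, by rw [hi]; exact ha⟩
    · exact ⟨i, i.2, by rw [hi]; exact hneg o a ha⟩
  obtain ⟨i, hi, hi'⟩ := hex false
  obtain ⟨j, hj, hj'⟩ := hex true
  refine ⟨i, hi, j, hj, ?_⟩
  refine Set.Subset.antisymm (fun U hU => ?_) ?_
  · obtain ⟨o, b, rfl⟩ := c.pt_surjective h U
    cases o
    · by_cases hb : b = ((i + 1 : ℕ) : ZMod 11)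
      · exact Or.inl (by rw [hb])
      · exact Or.inr (Or.inl (by rw [c.fixed_neg h hM h9 hL hi' hU (Ne.symm hb)]))
    · by_cases hb : b = ((j + 1 : ℕ) : ZMod 11)
      · exact Or.inr (Or.inr (Or.inl (by rw [hb])))
      · exact Or.inr (Or.inr (Or.inr (by rw [c.fixed_neg h hM h9 hL hj' hU (Ne.symm hb)]; rfl)))
  · rintro U (rfl | rfl | rfl | rfl)
    · exact hi'
    · exact hneg _ _ hi'
    · exact hj'
    · exact hneg _ _ hj'

/-- The four lines through a base point exhaust its neighbours. -/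
theorem Config.gam_base {F G : Set X} (hF : c.Fixed F) (hG : c.Fixed G) (hFG : F ≠ G) (o : Bool)
    {u v : ZMod 11} (hu : c.pt o u ∈ F) (hv : c.pt o v ∈ G) :
    Gam (c.base o) = (c.tr u F ∪ c.tr (-u) F ∪ c.tr v G ∪ c.tr (-v) G) \ {c.base o} := by
  haveI := Fact.mk (by norm_num : Nat.Prime 11)
  have h2 : (2 : ZMod 11) ≠ 0 := two_ne_zero_eleven
  have hneq : ∀ {F : Set X}, c.Fixed F → ∀ {u}, c.pt o u ∈ F → c.tr u F ≠ c.tr (-u) F := by
    intro F hF u hu he
    have e := congrArg (c.tr u) he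
    rw [c.tr_tr, c.tr_tr, add_neg_cancel, c.tr_zero] at e
    have h0 := c.tr_fixed_eq_zero h hM h9 hF (k := u + u) (by rw [e]; exact hF)
    rw [← two_mul] at h0
    rw [(mul_eq_zero.1 h0).resolve_left h2, c.pt_zero] at hu
    exact c.fixed_base h hM h9 hF o hu
  have hcross : ∀ a b, c.tr a F ≠ c.tr b G := by
    intro a b he
    have e := congrArg (c.tr (-b)) he
    rw [c.tr_tr, c.tr_tr, neg_add_cancel, c.tr_zero] at e
    have h0 := c.tr_fixed_eq_zero h hM h9 hF (k := -b + a) (by rw [e]; exact hG)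
    rw [h0, c.tr_zero] at e
    exact hFG e
  have hmem : ∀ {F : Set X}, c.Fixed F → ∀ {u}, c.pt o u ∈ F →
      c.base o ∈ c.tr u F ∧ c.base o ∈ c.tr (-u) F := by
    intro F hF u hu
    refine ⟨⟨c.pt o (-u), c.t_smul_pt o u ▸ hF.2 _ hu, ?_⟩, ⟨c.pt o u, hu, ?_⟩⟩
    · show pw c.r u • c.pt o (-u) = _
      rw [c.shift_pt, add_neg_cancel, c.pt_zero]
    · show pw c.r (-u) • c.pt o u = _
      rw [c.shift_pt, neg_add_cancel, c.pt_zero]
  set b := c.base o
  have l1 := hF.1.image (pw c.r u)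
  have l2 := hF.1.image (pw c.r (-u))
  have l3 := hG.1.image (pw c.r v)
  have l4 := hG.1.image (pw c.r (-v))
  have m1 := (hmem hF hu).1
  have m2 := (hmem hF hu).2
  have m3 := (hmem hG hv).1
  have m4 := (hmem hG hv).2
  have hd : ∀ {L L' : Set X}, IsLine L → IsLine L' → b ∈ L → b ∈ L' → L ≠ L' →
      Disjoint (L \ {b}) (L' \ {b}) := by
    intro L L' hL hL' hb hb' hne
    rw [Set.disjoint_left]
    intro T hT hT'
    exact hne (IsLine.unique h hL hL' hb hT.1 hb' hT'.1 fun he => hT.2 he.symm)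
  have hc : ∀ {L : Set X}, IsLine L → b ∈ L → (L \ {b}).ncard = 3 := fun hL hb => by
    rw [Set.ncard_sdiff_singleton_of_mem hb, c.ncard_line h hM h9 hL]
  have hsub : ∀ {L : Set X}, IsLine L → b ∈ L → L \ {b} ⊆ Gam b := fun hL hb T hT =>
    (IsLine.two h hL hb hT.1 fun he => hT.2 he.symm).1
  rw [Set.union_sdiff_distrib, Set.union_sdiff_distrib, Set.union_sdiff_distrib]
  refine (Set.eq_of_subset_of_ncard_le (Set.union_subset (Set.union_subset (Set.union_subset
    (hsub l1 m1) (hsub l2 m2)) (hsub l3 m3)) (hsub l4 m4)) ?_).symm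
  rw [Set.ncard_union_eq, Set.ncard_union_eq, Set.ncard_union_eq]
  · show _ ≤ (c.tr u F \ {b}).ncard + (c.tr (-u) F \ {b}).ncard + (c.tr v G \ {b}).ncard +
      (c.tr (-v) G \ {b}).ncard
    rw [hc (L := c.tr u F) l1 m1, hc (L := c.tr (-u) F) l2 m2, hc (L := c.tr v G) l3 m3,
      hc (L := c.tr (-v) G) l4 m4, c.ncard_gam h hM h9]
  · exact hd l1 l2 m1 m2 (hneq hF hu)
  · exact Disjoint.union_left (hd l1 l3 m1 m3 (hcross _ _)) (hd l2 l3 m2 m3 (hcross _ _))
  · exact Disjoint.union_left (Disjoint.union_left (hd l1 l4 m1 m4 (hcross _ _))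
      (hd l2 l4 m2 m4 (hcross _ _))) (hd l3 l4 m3 m4 (hneq hG hv))

omit h hM h9 in
theorem Config.dec_lo (m : ℕ) : c.dec (m % 11) = c.pt false (m : ZMod 11) := by
  rw [Config.dec, if_pos (Nat.mod_lt _ (by norm_num)), ZMod.natCast_mod]

omit h hM h9 in
theorem Config.dec_hi (m : ℕ) : c.dec (11 + m % 11) = c.pt true (m : ZMod 11) := by
  rw [Config.dec, if_neg (by omega), Nat.cast_add, ZMod.natCast_mod, ZMod.natCast_self, zero_add]

omit hM h9 in
theorem Config.dec_injective {m n : ℕ} (hm : m < 22) (hn : n < 22) (he : c.dec m = c.dec n) : m = n := by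
  unfold Config.dec at he
  split_ifs at he with h1 h2 h3 <;> obtain ⟨e1, e2⟩ := c.pt_injective h he <;> try cases e1
  all_goals
    have := (ZMod.natCast_eq_natCast_iff' m n 11).1 e2
    omega

omit h hM h9 in
theorem Config.dec_shift (x n : ℕ) : c.dec (shift x n) = pw c.r (x : ZMod 11) • c.dec n := by
  unfold shift
  by_cases hn : n < 11
  · rw [if_pos hn, c.dec_lo, Config.dec, if_pos hn, c.shift_pt, Nat.cast_add, add_comm]
  · rw [if_neg hn, c.dec_hi, Config.dec, if_neg hn, c.shift_pt, Nat.cast_add, add_comm]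

omit hM h9 in
theorem Config.ncard_decode (l : List ℕ) (hl : ∀ n ∈ l, n < 22) :
    (c.dec '' {n | n ∈ l}).ncard = l.dedup.length := by
  have hi : Set.InjOn c.dec {n | n ∈ l} := fun m hm n hn he => c.dec_injective h (hl m hm) (hl n hn) he
  rw [hi.ncard_image,
    show {n | n ∈ l} = (l.toFinset : Set ℕ) by ext; simp, Set.ncard_coe_finset, List.card_toFinset]

omit hM h9 in
theorem Config.countIn_eq (l m : List ℕ) (hl : ∀ n ∈ l, n < 22) (hm : ∀ n ∈ m, n < 22) (hnd : l.Nodup) :
    countIn l (mask m) = (c.dec '' {n | n ∈ l} ∩ c.dec '' {n | n ∈ m}).ncard := by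
  classical
  have hi : Set.InjOn c.dec {n : ℕ | n < 22} := fun a ha b hb he => c.dec_injective h ha hb he
  have hl' : {n | n ∈ l} ⊆ {n : ℕ | n < 22} := hl
  have hm' : {n | n ∈ m} ⊆ {n : ℕ | n < 22} := hm
  rw [← hi.image_inter hl' hm', (hi.mono (Set.inter_subset_left.trans hl')).ncard_image,
    show {n | n ∈ l} ∩ {n | n ∈ m} = ((l.filter fun n => decide (n ∈ m)).toFinset : Set ℕ) by
      ext; simp,
    Set.ncard_coe_finset, List.toFinset_card_of_nodup (hnd.filter _), countIn, List.countP_eq_length_filter]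
  simp only [testBit_mask]

/-- Nine non-neighbours are impossible. -/
theorem Config.far_ne_nine : False := by
  classical
  obtain ⟨Q, hQ⟩ : (Gam c.α).Nonempty :=
    Set.nonempty_of_ncard_ne_zero (by rw [c.ncard_gam h hM h9]; norm_num)
  obtain ⟨k, hF⟩ := c.exists_fixed h hM h9 (⟨c.α, Q, hQ, rfl⟩ : IsLine (Line c.α Q))
  set F := c.tr k (Line c.α Q)
  obtain ⟨i, hi, j, hj, hFe⟩ := c.fixed_shape h hM h9 hF
  obtain ⟨A, hA, hAdef⟩ : ∃ A, A < 6 ∧ A = i + 1 := ⟨i + 1, by omega, rfl⟩
  obtain ⟨B, hB, hBdef⟩ : ∃ B, B < 6 ∧ B = j + 1 := ⟨j + 1, by omega, rfl⟩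
  rw [← hAdef, ← hBdef] at hFe
  have hFA : c.pt false (A : ZMod 11) ∈ F := hFe.ge (Or.inl rfl)
  have hFB : c.pt true (B : ZMod 11) ∈ F := hFe.ge (Or.inr (Or.inr (Or.inl rfl)))
  -- a second orbit of lines
  obtain ⟨G, hG, hFG⟩ : ∃ G, c.Fixed G ∧ F ≠ G := by
    by_contra hc
    push Not at hc
    have hsub : Gam c.α ⊆ (c.tr (A : ZMod 11) F ∪ c.tr (-(A : ZMod 11)) F) \ {c.α} := by
      intro T hT
      have hT' : Adj c.α T := hT
      refine ⟨?_, fun he => hT'.1 (Set.mem_singleton_iff.1 he).symm⟩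
      obtain ⟨k', hk'⟩ := c.exists_fixed h hM h9 (⟨c.α, T, hT', rfl⟩ : IsLine (Line c.α T))
      have e := hc _ hk'
      have hα : c.pt false k' ∈ F := by
        rw [e]
        refine ⟨c.α, left_mem_line _ _, ?_⟩
        show pw c.r k' • c.α = pw c.r k' • c.base false
        rfl
      have hL : Line c.α T = c.tr (-k') F := by rw [e, c.tr_tr, neg_add_cancel, c.tr_zero]
      have hTm : T ∈ c.tr (-k') F := hL ▸ right_mem_line c.α T
      by_cases hk : k' = (A : ZMod 11)
      · exact Or.inr (hk ▸ hTm)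
      · rw [c.fixed_neg h hM h9 hF hFA hα (Ne.symm hk), neg_neg] at hTm
        exact Or.inl hTm
    have hl1 := hF.1.image (pw c.r (A : ZMod 11))
    have hl2 := hF.1.image (pw c.r (-(A : ZMod 11)))
    have := (Set.ncard_le_ncard (hsub.trans Set.sdiff_subset)).trans (Set.ncard_union_le _ _)
    rw [c.ncard_gam h hM h9, c.ncard_line h hM h9 (L := c.tr (A : ZMod 11) F) hl1,
      c.ncard_line h hM h9 (L := c.tr (-(A : ZMod 11)) F) hl2] at this
    omega
  obtain ⟨i', hi', j', hj', hGe⟩ := c.fixed_shape h hM h9 hG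
  obtain ⟨C, hC, hCdef⟩ : ∃ C, C < 6 ∧ C = i' + 1 := ⟨i' + 1, by omega, rfl⟩
  obtain ⟨D, hD, hDdef⟩ : ∃ D, D < 6 ∧ D = j' + 1 := ⟨j' + 1, by omega, rfl⟩
  rw [← hCdef, ← hDdef] at hGe
  have hGC : c.pt false (C : ZMod 11) ∈ G := hGe.ge (Or.inl rfl)
  have hGD : c.pt true (D : ZMod 11) ∈ G := hGe.ge (Or.inr (Or.inr (Or.inl rfl)))
  have hg0 := c.gam_base h hM h9 hF hG hFG false hFA hGC
  have hg1 := c.gam_base h hM h9 hF hG hFG true hFB hGD
  have c11 : ((11 : ℕ) : ZMod 11) = 0 := rfl
  have c22 : ((22 : ℕ) : ZMod 11) = 0 := rfl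
  have cast0 : ∀ {o : Bool} {a : ZMod 11}, c.pt o a = c.base o → a = 0 := fun he =>
    (c.pt_injective h (he.trans (c.pt_zero _).symm)).2
  have e1 : ∀ x : ℕ, x < 6 → (((22 - 2 * x : ℕ)) : ZMod 11) = -(2 * (x : ZMod 11)) := fun x hx => by
    rw [Nat.cast_sub (by omega), c22, Nat.cast_mul, Nat.cast_ofNat, zero_sub]
  have e2 : ∀ x y : ℕ, y < 6 → ((11 + x - y : ℕ) : ZMod 11) = (x : ZMod 11) - y := fun x y hy => by
    rw [Nat.cast_sub (by omega), Nat.cast_add, c11, zero_add]
  have e3 : ∀ x y : ℕ, x < 6 → y < 6 → ((22 - x - y : ℕ) : ZMod 11) = -(x : ZMod 11) - y :=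
    fun x y hx hy => by rw [Nat.cast_sub (by omega), Nat.cast_sub (by omega), c22, zero_sub]
  have sub0 : Gam c.α ⊆ c.dec '' {n | n ∈ nbZero A B C D} := by
    intro T hT
    rw [show Gam c.α = Gam (c.base false) from rfl, hg0] at hT
    obtain ⟨hT, hT0⟩ := hT
    have hne : T ≠ c.base false := hT0
    simp only [Config.tr, hFe, hGe, Set.image_insert_eq, Set.image_singleton, c.shift_pt,
      Set.mem_union, Set.mem_insert_iff, Set.mem_singleton_iff] at hT
    simp only [nbZero, Set.mem_image, Set.mem_setOf_eq, List.mem_cons, List.not_mem_nil, or_false,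
      exists_eq_or_imp, exists_eq_left, c.dec_lo, c.dec_hi, e1 A hA, e1 C hC, e2 A B hB, e2 B A hA,
      e2 C D hD, e2 D C hC, e3 A B hA hB, e3 C D hC hD, Nat.cast_add, Nat.cast_mul, Nat.cast_ofNat]
    rcases hT with (((h' | h' | h' | h') | (h' | h' | h' | h')) | (h' | h' | h' | h')) |
      (h' | h' | h' | h') <;> subst h' <;>
      first
        | (exfalso; apply hne; rw [← c.pt_zero]; congr 1; ring1)
        | (repeat (first
            | exact Or.inl (congrArg (c.pt _) (by ring1))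
            | exact congrArg (c.pt _) (by ring1)
            | right))
  have sub1 : Gam c.β ⊆ c.dec '' {n | n ∈ nbOne A B C D} := by
    intro T hT
    rw [show Gam c.β = Gam (c.base true) from rfl, hg1] at hT
    obtain ⟨hT, hT0⟩ := hT
    have hne : T ≠ c.base true := hT0
    simp only [Config.tr, hFe, hGe, Set.image_insert_eq, Set.image_singleton, c.shift_pt,
      Set.mem_union, Set.mem_insert_iff, Set.mem_singleton_iff] at hT
    simp only [nbOne, Set.mem_image, Set.mem_setOf_eq, List.mem_cons, List.not_mem_nil, or_false,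
      exists_eq_or_imp, exists_eq_left, c.dec_lo, c.dec_hi, e1 B hB, e1 D hD, e2 A B hB, e2 B A hA,
      e2 C D hD, e2 D C hC, e3 A B hA hB, e3 C D hC hD, Nat.cast_add, Nat.cast_mul, Nat.cast_ofNat]
    rcases hT with (((h' | h' | h' | h') | (h' | h' | h' | h')) | (h' | h' | h' | h')) |
      (h' | h' | h' | h') <;> subst h' <;>
      first
        | (exfalso; apply hne; rw [← c.pt_zero]; congr 1; ring1)
        | (repeat (first
            | exact Or.inl (congrArg (c.pt _) (by ring1))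
            | exact congrArg (c.pt _) (by ring1)
            | right))
  have hl0 : ∀ n ∈ nbZero A B C D, n < 22 := by
    intro n hn
    simp only [nbZero, List.mem_cons, List.not_mem_nil, or_false] at hn
    omega
  have hl1 : ∀ n ∈ nbOne A B C D, n < 22 := by
    intro n hn
    simp only [nbOne, List.mem_cons, List.not_mem_nil, or_false] at hn
    omega
  have full : ∀ (z : X) (l : List ℕ), (∀ n ∈ l, n < 22) → l.length = 12 →
      Gam z ⊆ c.dec '' {n | n ∈ l} → l.Nodup ∧ Gam z = c.dec '' {n | n ∈ l} := by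
    intro z l hl hlen hsub
    have h1 := Set.ncard_le_ncard hsub ((Set.toFinite {n | n ∈ l.toFinset}).subset (fun n hn => by simpa using hn) |>.image _)
    rw [c.ncard_gam h hM h9, c.ncard_decode h l hl] at h1
    have h2 : l.dedup = l := (List.dedup_sublist l).eq_of_length_le (by omega)
    refine ⟨h2 ▸ List.nodup_dedup l, Set.eq_of_subset_of_ncard_le hsub ?_ ?_⟩
    · rw [c.ncard_gam h hM h9, c.ncard_decode h l hl, h2, hlen]
    · exact ((Set.toFinite {n | n ∈ l.toFinset}).subset (fun n hn => by simpa using hn)).image _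
  obtain ⟨hnd, hG0⟩ := full c.α _ hl0 rfl sub0
  obtain ⟨hnd1, hG1⟩ := full c.β _ hl1 rfl sub1
  have hdec0 : c.dec 0 = c.α := c.pt_zero false
  have hdec11 : c.dec 11 = c.β := by
    show c.pt true ((11 : ℕ) : ZMod 11) = c.β
    rw [c11, c.pt_zero]
    rfl
  have hfarβ := c.β_far h hM h9
  have hbit : ∀ n, (mask (nbZero A B C D)).testBit n = true → n ∈ nbZero A B C D := fun n hn => by
    simpa [testBit_mask] using hn
  have horbFar : orb c.α c.β = Far c.α := by
    refine Set.eq_of_subset_of_ncard_le (fun T hT => ⟨ne_of_mem_orb hfarβ.1 hT, fun hA =>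
      hfarβ.2 ((adj_of_mem_orb hfarβ.1 hT).1 hA)⟩) ?_
    rw [h9, (orb_ncard h hfarβ.1).resolve_left fun h3 => hfarβ.2 ⟨hfarβ.1, h3⟩]
  have hcheck : check A B C D = true := by
    simp only [check, Bool.and_eq_true, decide_eq_true_eq, Bool.not_eq_true', List.all_eq_true,
      List.mem_range, Bool.or_eq_true, beq_iff_eq]
    refine ⟨⟨hnd, ?_, ?_⟩, fun x hx => ?_⟩
    · rw [Bool.eq_false_iff]
      intro hn
      have : c.α ∈ Gam c.α := hG0.ge ⟨0, hbit 0 hn, hdec0⟩
      exact this.1 rfl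
    · rw [Bool.eq_false_iff]
      intro hn
      have : c.β ∈ Gam c.α := hG0.ge ⟨11, hbit 11 hn, hdec11⟩
      exact hfarβ.2 this
    · by_cases hx0 : x = 0
      · exact Or.inl (Or.inl hx0)
      by_cases hxm : (mask (nbZero A B C D)).testBit x = true
      · exact Or.inl (Or.inr hxm)
      right
      have hv : c.dec x ∈ Far c.α := by
        refine ⟨fun he => hx0 (c.dec_injective h (by omega) (by norm_num) (hdec0.trans he).symm), fun hA => ?_⟩
        obtain ⟨n, hn, hn'⟩ := hG0.le (show c.dec x ∈ Gam c.α from hA)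
        rw [c.dec_injective h (hl0 n hn) (by omega) hn'] at hn
        exact hxm (by simpa [testBit_mask] using hn)
      rw [← horbFar] at hv
      obtain ⟨p, hp⟩ := hv
      have hp' : (p : S) • c.β = c.dec x := hp
      have hpα : (p : S) • c.α = c.α :=
        Sylow.smul_eq_iff_mem_normalizer.2 (Subgroup.le_normalizer p.2)
      have hinj : Set.InjOn (shift x) {n | n < 22} := fun a ha b hb he => by
        have := congrArg c.dec he
        rw [c.dec_shift, c.dec_shift] at this
        exact c.dec_injective h ha hb (MulAction.injective _ this)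
      have hsh : ∀ n ∈ (nbZero A B C D).map (shift x), n < 22 := by
        intro n hn
        obtain ⟨m, -, rfl⟩ := List.mem_map.1 hn
        unfold shift
        split_ifs <;> omega
      have himg : c.dec '' {n | n ∈ (nbZero A B C D).map (shift x)} = Gam (c.dec x) := by
        have hxe : c.dec x = pw c.r (x : ZMod 11) • c.α := by
          rw [← hdec0, ← c.dec_shift]
          simp [shift, Nat.mod_eq_of_lt hx]
        rw [hxe, gam_smul, hG0, Set.image_image]
        ext T
        simp [c.dec_shift]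
      generalize (p : S) = g at hp' hpα
      rw [c.countIn_eq h _ _ hsh hl0 (hnd.map_on fun a ha b hb => hinj (hl0 a ha) (hl0 b hb)),
        c.countIn_eq h _ _ hl1 hl0 hnd1, himg, ← hG0, ← hG1, ← hp', gam_smul]
      conv_lhs => rw [← hpα, gam_smul, ← Set.image_inter (MulAction.injective g),
        Set.ncard_image_of_injective _ (MulAction.injective g)]
  rw [hAdef, hBdef, hCdef, hDdef] at hcheck
  rw [check_false i hi j hj i' hi' j' hj'] at hcheck
  exact Bool.false_ne_true hcheck

end CfsgLib.Components2.TwentyTwo
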