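import Cfsg.Agent.Lib.Components2.TwentyTwo.Eleven
import Cfsg.Agent.Lib.Components2.TwentyTwo.Lines

/-!
A simple group with 22 Sylow 3-subgroups: Sylow order three is impossible (helper77).
-/

set_option autoImplicit false

open scoped Pointwise

namespace CfsgLib.Components2.TwentyTwo

/-- A subgroup with an element outside it absorbing every other one has half the order. -/
theorem card_eq_two_mul {G : Type*} [Group G] [Finite G] {A B : Subgroup G} (hAB : A ≤ B) {t : G}
    (ht : t ∈ B) (htA : t ∉ A) (hall : ∀ b ∈ B, b ∈ A ∨ b * t ∈ A) :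
    Nat.card B = 2 * Nat.card A := by
  have hidx : (A.subgroupOf B).index = 2 := by
    rw [Subgroup.index_eq_two_iff]
    refine ⟨⟨t, ht⟩, fun b => ?_⟩
    rcases hall b b.2 with h1 | h1
    · exact Or.inr ⟨h1, fun h2 => htA (by
        have := A.mul_mem (A.inv_mem h1) (show (b : G) * t ∈ A from h2)
        rwa [inv_mul_cancel_left] at this)⟩
    · exact Or.inl ⟨h1, fun h2 => htA (by
        have := A.mul_mem (A.inv_mem (show (b : G) ∈ A from h2)) h1
        rwa [inv_mul_cancel_left] at this)⟩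
  have := Subgroup.card_mul_index (A.subgroupOf B)
  rw [hidx, Nat.card_congr (Subgroup.subgroupOfEquivOfLe hAB).toEquiv] at this
  omega

/-- Only zero equals its negative modulo 11. -/
theorem neg_eq_self_eleven : ∀ a : ZMod 11, -a = a → a = 0 := by decide +kernel

/-- A subgroup of order 35 does not occur on seven points. -/
theorem card_ne_thirtyfive {β : Type*} [Finite β] (hβ : Nat.card β = 7) (H : Subgroup (Equiv.Perm β)) :
    Nat.card H ≠ 35 := by
  classical
  intro hH
  letI := Fintype.ofFinite β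
  haveI := Fact.mk (by norm_num : Nat.Prime 7)
  haveI := Fact.mk (by norm_num : Nat.Prime 5)
  have hsub : Subsingleton (Sylow 7 H) := by
    rw [← Finite.card_le_one_iff_subsingleton]
    obtain ⟨P⟩ : Nonempty (Sylow 7 H) := inferInstance
    have h1 := P.card_dvd_index
    have h2 := card_sylow_modEq_one 7 H
    have h3 : (P : Subgroup H).index ∣ 35 := hH ▸ (P : Subgroup H).index_dvd_card
    have h4 := P.not_dvd_index
    have h5 := Nat.le_of_dvd (by norm_num) (h1.trans h3)
    have h6 := h1.trans h3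
    unfold Nat.ModEq at h2
    have h7 : ¬ 7 ∣ Nat.card (Sylow 7 H) := fun hd => h4 (hd.trans h1)
    interval_cases hn : Nat.card (Sylow 7 H) <;> omega
  obtain ⟨c, hc⟩ := exists_prime_orderOf_dvd_card' (G := H) 7 (hH ▸ (by norm_num))
  obtain ⟨s, hs⟩ := exists_prime_orderOf_dvd_card' (G := H) 5 (hH ▸ (by norm_num))
  have hP : Nat.card (Subgroup.zpowers c) = 7 ^ (Nat.card H).factorization 7 := by
    rw [Nat.card_zpowers, hc, hH, show (35 : ℕ) = 7 ^ 1 * 5 from rfl,
      Nat.factorization_mul (by norm_num) (by norm_num), Finsupp.add_apply,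
      (by norm_num : Nat.Prime 7).factorization_pow, Finsupp.single_eq_same,
      Nat.factorization_eq_zero_of_not_dvd (by norm_num : ¬ 7 ∣ 5), add_zero, pow_one]
  have hn : (Subgroup.zpowers c).Normal := by
    have := Sylow.normal_of_subsingleton (Sylow.ofCard _ hP)
    simpa using this
  obtain ⟨i, hi⟩ := Subgroup.mem_zpowers_iff.1 (hn.conj_mem c (Subgroup.mem_zpowers c) s)
  -- conjugation by `s` fixes `c`
  have hc7 : c ^ 7 = 1 := hc ▸ pow_orderOf_eq_one c
  have hi' : s * c * s⁻¹ = c ^ ((i % 7).toNat) := by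
    rw [← hi, ← zpow_natCast, Int.toNat_of_nonneg (Int.emod_nonneg i (by norm_num))]
    have hr' : c ^ (7 : ℤ) = 1 := by exact_mod_cast hc7
    conv_lhs => rw [← Int.mul_ediv_add_emod i 7, zpow_add, zpow_mul, hr', one_zpow, one_mul]
  set k := (i % 7).toNat
  have hk7 : k < 7 := by omega
  have hit : ∀ n : ℕ, s ^ n * c * (s ^ n)⁻¹ = c ^ k ^ n := by
    intro n
    induction n with
    | zero => simp
    | succ n ih =>
      rw [pow_succ', show s * s ^ n * c * (s * s ^ n)⁻¹ = s * (s ^ n * c * (s ^ n)⁻¹) * s⁻¹ by group, ih,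
        ← _root_.conj_pow, hi', ← pow_mul, pow_succ']
  have h5 := hit 5
  rw [(hs ▸ pow_orderOf_eq_one s : s ^ 5 = 1), one_mul, inv_one, mul_one] at h5
  have hk : k = 1 := by
    have h6 : k ^ 5 % 7 = 1 := by
      have := (pow_eq_pow_iff_modEq).1 ((pow_one c).trans h5)
      rw [hc] at this
      exact this.symm
    have : ∀ k < 7, k ^ 5 % 7 = 1 → k = 1 := by decide
    exact this k hk7 h6
  rw [hk, pow_one, mul_inv_eq_iff_eq_mul] at hi'
  have hcomm : Commute (s : Equiv.Perm β) (c : Equiv.Perm β) := congrArg Subtype.val hi'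
  have hs5 : (s : Equiv.Perm β) ^ 5 = 1 := by
    rw [← Subgroup.coe_pow, (hs ▸ pow_orderOf_eq_one s : s ^ 5 = 1)]; rfl
  have hf := modEq_fixed (s : Equiv.Perm β) 5 hs5 Set.univ fun _ _ => Set.mem_univ _
  rw [Set.ncard_univ, hβ] at hf
  obtain ⟨b, -, hb⟩ : {y | y ∈ Set.univ ∧ (s : Equiv.Perm β) y = y}.Nonempty := by
    refine Set.nonempty_of_ncard_ne_zero fun h0 => ?_
    rw [h0] at hf
    simp [Nat.ModEq] at hf
  have hco : orderOf (c : Equiv.Perm β) = Fintype.card β := by
    rw [Subgroup.orderOf_coe, hc, ← Nat.card_eq_fintype_card, hβ]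
  have hcyc := Equiv.Perm.isCycle_of_prime_order'' (σ := (c : Equiv.Perm β))
    (by rw [← Nat.card_eq_fintype_card, hβ]; norm_num) hco
  have hsupp : (c : Equiv.Perm β).support = Finset.univ :=
    Finset.eq_univ_of_card _ (by rw [← hcyc.orderOf, hco])
  have hs1 : (s : Equiv.Perm β) = 1 := by
    refine Equiv.ext fun y => ?_
    obtain ⟨j, rfl⟩ := hcyc.exists_zpow_eq (Equiv.Perm.mem_support.1 (hsupp ▸ Finset.mem_univ b))
      (Equiv.Perm.mem_support.1 (hsupp ▸ Finset.mem_univ y))
    rw [← Equiv.Perm.mul_apply, (hcomm.zpow_right j).eq, Equiv.Perm.mul_apply, hb]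
    rfl
  have : s = 1 := Subtype.ext hs1
  rw [this, orderOf_one] at hs
  omega

/-- A subgroup of the 2-part order contains a transposition. -/
theorem exists_swap_mem {β : Type*} [Finite β] [DecidableEq β] (hβ : Nat.card β = 7)
    (H : Subgroup (Equiv.Perm β)) (hH : 16 ∣ Nat.card H) :
    ∃ a b : β, a ≠ b ∧ Equiv.swap a b ∈ H := by
  haveI := Fact.mk Nat.prime_two
  obtain ⟨K, hK⟩ := Sylow.exists_subgroup_card_pow_prime 2 (G := H) (n := 4) (by simpa using hH)
  let K' := K.map H.subtype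
  have hK' : Nat.card K' = 16 := by
    rw [Subgroup.card_map_of_injective H.subtype_injective, hK]; norm_num
  have hfac : (Nat.card (Equiv.Perm β)).factorization 2 = 4 := by
    rw [Nat.card_perm, hβ, show Nat.factorial 7 = 2 ^ 4 * 315 from rfl,
      Nat.factorization_mul (by norm_num) (by norm_num), Finsupp.add_apply,
      Nat.prime_two.factorization_pow, Finsupp.single_eq_same,
      Nat.factorization_eq_zero_of_not_dvd (by norm_num : ¬ 2 ∣ 315)]
  let P : Sylow 2 (Equiv.Perm β) := Sylow.ofCard K' (by rw [hK', hfac]; norm_num)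
  obtain ⟨a, b, hab⟩ := (Finite.one_lt_card_iff_nontrivial.1 (by rw [hβ]; norm_num : 1 < Nat.card β)).exists_pair_ne
  have hord : orderOf (Equiv.swap a b) = 2 :=
    orderOf_eq_prime (by rw [pow_two, Equiv.swap_mul_self]) fun he => hab (by
      have := Equiv.ext_iff.1 he a
      rw [Equiv.swap_apply_left] at this
      exact this.symm)
  obtain ⟨Q, hQ⟩ := (IsPGroup.of_card (G := Subgroup.zpowers (Equiv.swap a b)) (p := 2) (n := 1)
    (by rw [Nat.card_zpowers, hord, pow_one])).exists_le_sylow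
  obtain ⟨g, hg⟩ := MulAction.exists_smul_eq (Equiv.Perm β) Q P
  have hmem : g * Equiv.swap a b * g⁻¹ ∈ (P : Subgroup (Equiv.Perm β)) := by
    rw [← hg]
    exact Subgroup.smul_mem_pointwise_smul _ (MulAut.conj g) _ (hQ (Subgroup.mem_zpowers _))
  refine ⟨g a, g b, fun he => hab (g.injective he), ?_⟩
  obtain ⟨w, -, hw⟩ : g * Equiv.swap a b * g⁻¹ ∈ K' := hmem
  rw [Equiv.swap_apply_apply, ← hw]
  exact w.2

variable {S : Type*} [Group S] [Finite S] [Fact (Nat.Prime 3)]

local notation "X" => Sylow 3 S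

theorem orb_smul (g : S) (x R : X) : g • orb x R = orb (g • x) (g • R) := by
  ext T
  constructor
  · rintro ⟨U, hU, rfl⟩
    exact smul_mem_orb g hU
  · intro hT
    refine ⟨g⁻¹ • T, ?_, smul_inv_smul g T⟩
    have := smul_mem_orb g⁻¹ hT
    rwa [inv_smul_smul, inv_smul_smul] at this

variable (h : Hyp S) (c : Config S) (hM : Nat.card c.α = 3)
include h c

omit hM in
/-- The normaliser of the Sylow 11-subgroup has order 22. -/
theorem Config.card_normalizer :
    Nat.card (Subgroup.normalizer (Subgroup.zpowers c.r : Set S)) = 22 := by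
  have ho : orderOf c.r = 11 := by
    haveI := Fact.mk (by norm_num : Nat.Prime 11)
    exact orderOf_eq_prime c.r_pow c.r_ne
  have hpw : ∀ a, pw c.r a ∈ Subgroup.zpowers c.r := fun a => Subgroup.npow_mem_zpowers _ _
  have ht2 : c.t * c.t = 1 := by rw [← pow_two, c.t_pow]
  rw [card_eq_two_mul Subgroup.le_normalizer (t := c.t) ?_ ?_ ?_, Nat.card_zpowers, ho]
  · rw [Subgroup.mem_normalizer_iff]
    have hfwd : ∀ g ∈ Subgroup.zpowers c.r, c.t * g * c.t⁻¹ ∈ Subgroup.zpowers c.r := by
      rintro g ⟨i, rfl⟩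
      show c.t * c.r ^ i * c.t⁻¹ ∈ _
      rw [← conj_zpow, c.conj]
      exact zpow_mem (hpw _) i
    refine fun g => ⟨hfwd g, fun hg => ?_⟩
    have := hfwd _ hg
    rwa [show c.t * (c.t * g * c.t⁻¹) * c.t⁻¹ = (c.t * c.t) * g * (c.t * c.t)⁻¹ by group, ht2,
      one_mul, inv_one, mul_one] at this
  · intro ht
    obtain ⟨i, hi⟩ := Subgroup.mem_zpowers_iff.1 ht
    have h1 := c.conj
    rw [← hi, (Commute.zpow_self c.r i).eq, mul_inv_cancel_right] at h1
    have h2 : pw c.r (-1) = pw c.r 1 := by rw [pw_one]; exact h1.symm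
    obtain ⟨u⟩ : Nonempty X := inferInstance
    exact neg_one_ne_one_eleven (pw_smul_inj h c.r_pow c.r_ne u (congrArg (· • u) h2))
  · intro s hs
    obtain ⟨K, hK⟩ := conj_pw_of_mem_normalizer c.r_pow hs
    rcases conj_cases h c.r_pow c.r_ne hK with rfl | rfl
    · left
      rw [pw_one, mul_inv_eq_iff_eq_mul] at hK
      obtain ⟨a, rfl⟩ := centralizer_eq h c.r_pow c.r_ne hK
      exact hpw a
    · right
      have hcomm : s * c.t * c.r = c.r * (s * c.t) := by
        rw [← mul_inv_eq_iff_eq_mul, mul_inv_rev]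
        rw [show s * c.t * c.r * (c.t⁻¹ * s⁻¹) = s * (c.t * c.r * c.t⁻¹) * s⁻¹ by group, c.conj,
          conj_pw c.r_pow hK, neg_one_mul, neg_neg, pw_one]
      obtain ⟨a, ha⟩ := centralizer_eq h c.r_pow c.r_ne hcomm
      rw [ha]
      exact hpw a

omit hM in
theorem card_sylow_eleven_eq :
    Nat.card (Sylow 11 S) * 22 = Nat.card S := by
  haveI := Fact.mk (by norm_num : Nat.Prime 11)
  obtain ⟨R⟩ : Nonempty (Sylow 11 S) := inferInstance
  have hR := card_sylow_eleven h R
  have hr : Nat.card (Subgroup.zpowers c.r) = 11 ^ (Nat.card S).factorization 11 := by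
    rw [← R.card_eq_multiplicity, hR, Nat.card_zpowers]
    exact orderOf_eq_prime c.r_pow c.r_ne
  have e := Sylow.card_eq_index_normalizer (Sylow.ofCard _ hr)
  rw [← Sylow.coe_coe, Sylow.coe_ofCard] at e
  rw [e, mul_comm, ← c.card_normalizer h, Subgroup.card_mul_index]

omit hM in
/-- Order 264 is impossible. -/
theorem Config.eleven_twelve (h12 : Nat.card (Sylow 11 S) = 12) : False := by
  classical
  haveI := Fact.mk (by norm_num : Nat.Prime 11)
  haveI := Fact.mk Nat.prime_two
  haveI := h.simple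
  letI := Fintype.ofFinite (Sylow 11 S)
  obtain ⟨R⟩ : Nonempty (Sylow 11 S) := inferInstance
  have hr : Nat.card (Subgroup.zpowers c.r) = 11 ^ (Nat.card S).factorization 11 := by
    rw [← R.card_eq_multiplicity, card_sylow_eleven h R, Nat.card_zpowers]
    exact orderOf_eq_prime c.r_pow c.r_ne
  set R₀ := Sylow.ofCard _ hr with hR₀
  have hR₀c : (R₀ : Subgroup S) = Subgroup.zpowers c.r := Sylow.coe_ofCard _ hr
  obtain ⟨u⟩ : Nonempty X := inferInstance
  have hfree : ∀ {a : ZMod 11} {Q : Sylow 11 S}, Q ≠ R₀ → pw c.r a • Q = Q → a = 0 := by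
    intro a Q hne he
    by_contra ha
    refine hne ?_
    have hN : pw c.r a ∈ Subgroup.normalizer (Q : Set S) := Sylow.smul_eq_iff_mem_normalizer.1 he
    have hp : IsPGroup 11 (Subgroup.zpowers (pw c.r a)) :=
      R₀.isPGroup'.to_le (by rw [hR₀c]; exact Subgroup.zpowers_le.2 (Subgroup.npow_mem_zpowers _ _))
    have hmem : pw c.r a ∈ (Q : Subgroup S) :=
      ((hp.inf_normalizer_sylow Q).le ⟨Subgroup.mem_zpowers _, hN⟩).2
    have hne1 : pw c.r a ≠ 1 := fun h1 => ha (pw_smul_eq h c.r_pow c.r_ne (u := u)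
      (by rw [h1, one_smul]))
    have ho : orderOf (pw c.r a) = 11 := orderOf_eq_prime
      (by rw [pw, ← pow_mul, mul_comm, pow_mul, c.r_pow, one_pow]) hne1
    have e1 : Subgroup.zpowers (pw c.r a) = (Q : Subgroup S) :=
      Subgroup.eq_of_le_of_card_ge (Subgroup.zpowers_le.2 hmem)
        (by rw [Nat.card_zpowers, ho]; exact (card_sylow_eleven h Q).le)
    have e2 : Subgroup.zpowers (pw c.r a) = (R₀ : Subgroup S) :=
      Subgroup.eq_of_le_of_card_ge (by rw [hR₀c]; exact Subgroup.zpowers_le.2 (Subgroup.npow_mem_zpowers _ _))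
        (by rw [Nat.card_zpowers, ho]; exact (card_sylow_eleven h R₀).le)
    exact Sylow.ext (e1.symm.trans e2)
  have hrR : ∀ a, pw c.r a • R₀ = R₀ := fun a => Sylow.smul_eq_iff_mem_normalizer.2
    (Subgroup.le_normalizer (hR₀c ▸ Subgroup.npow_mem_zpowers _ _))
  let σ : Equiv.Perm (Sylow 11 S) := MulAction.toPermHom S _ c.t
  have htR : σ R₀ = R₀ := by
    refine Sylow.smul_eq_iff_mem_normalizer.2 ?_
    rw [← Sylow.coe_coe, hR₀c, Subgroup.mem_normalizer_iff]
    have hfwd : ∀ g ∈ Subgroup.zpowers c.r, c.t * g * c.t⁻¹ ∈ Subgroup.zpowers c.r := by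
      rintro g ⟨i, rfl⟩
      show c.t * c.r ^ i * c.t⁻¹ ∈ _
      rw [← conj_zpow, c.conj]
      exact zpow_mem (Subgroup.npow_mem_zpowers _ _) i
    refine fun g => ⟨hfwd g, fun hg => ?_⟩
    have := hfwd _ hg
    rwa [show c.t * (c.t * g * c.t⁻¹) * c.t⁻¹ = (c.t * c.t) * g * (c.t * c.t)⁻¹ by group,
      show c.t * c.t = 1 by rw [← pow_two, c.t_pow], one_mul, inv_one, mul_one] at this
  have hpair : ∀ Q Q' : Sylow 11 S, Q ≠ R₀ → Q' ≠ R₀ → σ Q = Q → σ Q' = Q' → Q = Q' := by
    intro Q Q' hQ hQ' hf hf'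
    have hinj : Function.Injective fun a : ZMod 11 => pw c.r a • Q := by
      intro a b hab
      have he : pw c.r (-b + a) • Q = Q := by
        have hab' : pw c.r a • Q = pw c.r b • Q := hab
        rw [pw_add c.r_pow, mul_smul, hab', smul_smul, ← pw_add c.r_pow, neg_add_cancel, pw_zero,
          one_smul]
      have := hfree hQ he
      rw [neg_add_eq_zero] at this
      exact this.symm
    have hrange : (Set.range fun a : ZMod 11 => pw c.r a • Q) = Set.univ \ {R₀} := by
      refine Set.eq_of_subset_of_ncard_le ?_ ?_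
      · rintro _ ⟨a, rfl⟩
        refine ⟨Set.mem_univ _, fun he => hQ (MulAction.injective (pw c.r a) ?_)⟩
        exact (Set.mem_singleton_iff.1 he).trans (hrR a).symm
      · rw [Set.ncard_sdiff_singleton_of_mem (Set.mem_univ _), Set.ncard_univ, h12,
          ← Nat.card_coe_set_eq, Nat.card_range_of_injective hinj, Nat.card_zmod]
    obtain ⟨a, ha⟩ := hrange.ge (show Q' ∈ Set.univ \ {R₀} from ⟨Set.mem_univ _, hQ'⟩)
    have ha' : pw c.r a • Q = Q' := ha
    have hf1 : c.t • Q = Q := hf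
    have hf2 : c.t • Q' = Q' := hf'
    have e : pw c.r (-a) • Q = pw c.r a • Q := by
      conv_rhs => rw [ha', ← hf2, ← ha']
      rw [← neg_one_mul, ← conj_pw c.r_pow c.conj, mul_smul, mul_smul, inv_smul_eq_iff.2 hf1.symm]
    rw [neg_eq_self_eleven a (hinj e), pw_zero, one_smul] at ha'
    exact ha'
  have h1 := modEq_fixed σ 2 (by rw [← map_pow, c.t_pow, map_one]) Set.univ fun _ _ => Set.mem_univ _
  rw [Set.ncard_univ, h12] at h1
  set F := {y | y ∈ (Set.univ : Set (Sylow 11 S)) ∧ σ y = y} with hF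
  have hR₀F : R₀ ∈ F := ⟨Set.mem_univ _, htR⟩
  have hle : (F \ {R₀}).ncard ≤ 1 := by
    rw [Set.ncard_le_one]
    exact fun Q hQ Q' hQ' => hpair Q Q' hQ.2 hQ'.2 hQ.1.2 hQ'.1.2
  have hadd := Set.ncard_sdiff_singleton_add_one hR₀F F.toFinite
  have hF2 : F.ncard = 2 := by unfold Nat.ModEq at h1; omega
  have hsupp : σ.support.card = 2 * 5 := by
    have e : (σ.supportᶜ : Finset _) = F.toFinite.toFinset := by ext y; simp [hF]
    have e2 := congrArg Finset.card e
    rw [Finset.card_compl, ← Set.ncard_eq_toFinset_card, hF2, ← Nat.card_eq_fintype_card, h12] at e2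
    omega
  have hsign : Equiv.Perm.sign (MulAction.toPermHom S (Sylow 11 S) c.t) = 1 :=
    sign_eq_one h.noncomm c.t
  rw [show MulAction.toPermHom S (Sylow 11 S) c.t = σ from rfl,
    sign_of_sq_eq_one σ (by rw [← map_pow, c.t_pow, map_one]) hsupp] at hsign
  exact absurd hsign (by decide)

include hM

/-- Sylow order three is impossible. -/
theorem Config.card_ne_three : False := by
  classical
  haveI := h.simple
  letI := Fintype.ofFinite X
  obtain ⟨π₀, hπ₀⟩ := exists_prime_orderOf_dvd_card' (G := c.α) 3 (dvd_of_eq hM.symm)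
  obtain ⟨π, hπdef⟩ : ∃ π : S, π = (π₀ : S) := ⟨_, rfl⟩
  have ho : orderOf π = 3 := by rw [hπdef, Subgroup.orderOf_coe, hπ₀]
  have hπα : π ∈ (c.α : Subgroup S) := hπdef ▸ π₀.2
  have hP : (c.α : Subgroup S) = Subgroup.zpowers π :=
    (Subgroup.eq_of_le_of_card_ge (Subgroup.zpowers_le.2 hπα)
      (by rw [Nat.card_zpowers, ho]; exact hM.le)).symm
  set N := Subgroup.normalizer (c.α : Set S) with hN
  set C := Subgroup.centralizer ({π} : Set S) with hC
  have hmemC : ∀ g, g ∈ C ↔ g * π = π * g := fun g => Subgroup.mem_centralizer_singleton_iff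
  have hCN : C ≤ N := by
    intro g hg
    refine Subgroup.mem_normalizer_iff.2 fun y => ?_
    show y ∈ (c.α : Subgroup S) ↔ g * y * g⁻¹ ∈ (c.α : Subgroup S)
    rw [hP]
    have hcg : Commute g π := (hmemC g).1 hg
    constructor
    · rintro ⟨i, rfl⟩
      exact ⟨i, by rw [(hcg.zpow_right i).eq, mul_inv_cancel_right]⟩
    · rintro ⟨i, hi⟩
      refine ⟨i, ?_⟩
      rw [← mul_left_cancel_iff (a := g), (hcg.zpow_right i).eq]
      exact eq_mul_inv_iff_mul_eq.1 hi
  have hfixα : ∀ {g}, g ∈ C → g • c.α = c.α := fun hg => Sylow.smul_eq_iff_mem_normalizer.2 (hCN hg)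
  -- the involution inverts `π`
  have hπN : ∀ g ∈ N, g * π * g⁻¹ = π ∨ g * π * g⁻¹ = π ^ 2 := by
    intro g hg
    have h1 : g * π * g⁻¹ ∈ (c.α : Subgroup S) := (Subgroup.mem_normalizer_iff.1 hg π).1 hπα
    rw [hP] at h1
    obtain ⟨i, hi⟩ := Subgroup.mem_zpowers_iff.1 h1
    rw [← zpow_mod_orderOf, ho] at hi
    have h3 := Int.emod_nonneg i (show ((3 : ℕ) : ℤ) ≠ 0 by norm_num)
    have h4 := Int.emod_lt_of_pos i (show (0 : ℤ) < ((3 : ℕ) : ℤ) by norm_num)
    generalize i % ((3 : ℕ) : ℤ) = j at h3 h4 hi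
    push_cast at h4
    interval_cases j
    · exfalso
      rw [zpow_zero, eq_comm, mul_inv_eq_one, mul_eq_left] at hi
      rw [hi, orderOf_one] at ho
      omega
    · exact Or.inl (by rw [← hi, zpow_one])
    · exact Or.inr (by rw [← hi]; norm_cast)
  have htN : c.t ∈ N := Sylow.smul_eq_iff_mem_normalizer.1 c.fix_α
  have hαβ : c.α ≠ c.β := fun he => c.β_not ⟨0, by
    show pw c.r 0 • c.α = c.β
    rw [pw_zero, one_smul, he]⟩
  have hπfree : ∀ {Q : X}, c.α ≠ Q → π • Q ≠ Q := by
    intro Q hne he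
    have h1 := (all_adj_of_card h c.α hM hne).2
    have h2 : orb c.α Q = {Q} := by
      refine Set.eq_singleton_iff_unique_mem.2 ⟨self_mem_orb _ _, ?_⟩
      rintro T ⟨⟨g, hg⟩, rfl⟩
      rw [hP] at hg
      obtain ⟨i, rfl⟩ := Subgroup.mem_zpowers_iff.1 hg
      exact Subgroup.zpowers_le.2 (show π ∈ MulAction.stabilizer S Q from he)
        (Subgroup.mem_zpowers_iff.2 ⟨i, rfl⟩)
    rw [h2, Set.ncard_singleton] at h1
    omega
  have htπ : c.t * π * c.t⁻¹ = π ^ 2 := by
    refine (hπN c.t htN).resolve_left fun hc => ?_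
    have hfix : c.t • π • c.β = π • c.β := by
      rw [smul_smul, show c.t * π = π * c.t from mul_inv_eq_iff_eq_mul.1 hc, mul_smul, c.fix_β]
    rcases c.fix_only _ hfix with h1 | h1
    · exact hαβ (MulAction.injective π ((show π • c.α = c.α from
        Sylow.smul_eq_iff_mem_normalizer.2 (Subgroup.le_normalizer hπα)).trans h1.symm))
    · exact hπfree hαβ h1
  have hπ3 : π ^ 3 = 1 := ho ▸ pow_orderOf_eq_one π
  have hcardN : Nat.card N = 2 * Nat.card C := by
    refine card_eq_two_mul hCN htN ?_ ?_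
    · intro ht
      rw [hmemC, ← mul_inv_eq_iff_eq_mul, htπ, pow_two, mul_eq_left] at ht
      rw [ht, orderOf_one] at ho
      omega
    · intro g hg
      rcases hπN g hg with h1 | h1
      · exact Or.inl ((hmemC g).2 (mul_inv_eq_iff_eq_mul.1 h1))
      · right
        rw [hmemC, ← mul_inv_eq_iff_eq_mul, mul_inv_rev,
          show g * c.t * π * (c.t⁻¹ * g⁻¹) = g * (c.t * π * c.t⁻¹) * g⁻¹ by group, htπ, ← _root_.conj_pow,
          h1, ← pow_mul, show 2 * 2 = 3 + 1 from rfl, pow_add, hπ3, one_mul, pow_one]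
  -- the blocks
  let Bl := {B : Set X // ∃ Q, c.α ≠ Q ∧ B = orb c.α Q}
  let act : C → Bl → Bl := fun g B => ⟨(g : S) • B.1, by
    obtain ⟨Q, hQ, hB⟩ := B.2
    refine ⟨(g : S) • Q, fun he => hQ (MulAction.injective (g : S) ((hfixα g.2).trans he)), ?_⟩
    rw [hB, orb_smul, hfixα g.2]⟩
  letI iact : MulAction C Bl :=
    { smul := act
      one_smul := fun B => Subtype.ext (by show ((1 : C) : S) • B.1 = B.1; rw [Subgroup.coe_one, one_smul])
      mul_smul := fun g k B => Subtype.ext (by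
        show ((g * k : C) : S) • B.1 = (g : S) • (k : S) • B.1
        rw [Subgroup.coe_mul, mul_smul]) }
  have hval : ∀ (g : C) (B : Bl), (g • B).1 = (g : S) • B.1 := fun _ _ => rfl
  have hBl : Nat.card Bl = 7 := by
    let proj : {Q : X // c.α ≠ Q} → Bl := fun Q => ⟨orb c.α Q.1, Q.1, Q.2, rfl⟩
    have hfib : ∀ B : Bl, Nat.card {Q : {Q : X // c.α ≠ Q} // proj Q = B} = 3 := by
      intro B
      obtain ⟨Q, hQ, hB⟩ := B.2
      refine Eq.trans ?_ (all_adj_of_card h c.α hM hQ).2
      rw [← Nat.card_coe_set_eq]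
      refine Nat.card_congr
        { toFun := fun T => ⟨T.1.1, by
            have := congrArg Subtype.val T.2
            rw [hB] at this
            exact this ▸ self_mem_orb _ _⟩
          invFun := fun T => ⟨⟨T.1, ne_of_mem_orb hQ T.2⟩, Subtype.ext (by
            show orb c.α T.1 = B.1
            rw [hB, orb_eq_of_mem T.2])⟩
          left_inv := fun T => rfl
          right_inv := fun T => rfl }
    have h1 : Nat.card {Q : X // c.α ≠ Q} = Nat.card Bl * 3 := by
      rw [← Nat.card_congr (Equiv.sigmaFiberEquiv proj), Nat.card_sigma,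
        Finset.sum_congr rfl fun B _ => hfib B, Finset.sum_const, smul_eq_mul, Finset.card_univ,
        ← Nat.card_eq_fintype_card]
    have h2 : Nat.card {Q : X // c.α ≠ Q} = 21 := by
      rw [Nat.card_eq_fintype_card, Fintype.card_subtype_compl, Fintype.card_subtype_eq',
        ← Nat.card_eq_fintype_card, h.card]
    omega
  let ψ : C →* Equiv.Perm Bl := MulAction.toPermHom C Bl
  -- an element fixing a block acts as a power of `π` on it
  have hblock : ∀ (g : C) (Q : X), c.α ≠ Q → (g : S) • orb c.α Q = orb c.α Q →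
      ∃ i : ℤ, (g : S) • Q = π ^ i • Q := by
    intro g Q hne he
    obtain ⟨⟨a, ha⟩, ha'⟩ := he.le (Set.smul_mem_smul_set (self_mem_orb c.α Q))
    rw [hP] at ha
    obtain ⟨i, rfl⟩ := Subgroup.mem_zpowers_iff.1 ha
    exact ⟨i, ha'.symm⟩
  have hπC : π ∈ C := (hmemC π).2 rfl
  have hker : ∀ g : C, g ∈ ψ.ker ↔ (g : S) ∈ (c.α : Subgroup S) := by
    intro g
    constructor
    · intro hg
      have hfix : ∀ B : Bl, g • B = B := fun B => Equiv.ext_iff.1 hg B
      have hcg : Commute (g : S) π := (hmemC _).1 g.2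
      have hg3 : (g : S) ^ 3 = 1 := by
        refine eq_one_of_fixed h fun Q => ?_
        have hgα := hfixα g.2
        by_cases hne : c.α = Q
        · subst hne
          rw [pow_succ, pow_two, mul_smul, mul_smul, hgα, hgα, hgα]
        obtain ⟨i, hi⟩ := hblock g Q hne (congrArg Subtype.val (hfix ⟨orb c.α Q, Q, hne, rfl⟩))
        have hg2 : ∀ j : ℤ, (g : S) • π ^ j • Q = π ^ (j + i) • Q := fun j => by
          rw [smul_smul, (hcg.zpow_right j).eq, mul_smul, hi, smul_smul, ← zpow_add]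
        rw [pow_succ, pow_two, mul_smul, mul_smul, hi, hg2, hg2, show i + i + i = 3 * i by ring,
          zpow_mul, show π ^ (3 : ℤ) = 1 by exact_mod_cast hπ3, one_zpow, one_smul]
      obtain ⟨j, -, hj⟩ := (Nat.dvd_prime_pow (Fact.out : Nat.Prime 3)).1
        (orderOf_dvd_of_pow_eq_one hg3 |>.trans (pow_one 3).symm.dvd)
      exact ((IsPGroup.of_card (G := Subgroup.zpowers (g : S)) (p := 3) (n := j)
        (by rw [Nat.card_zpowers, hj])).inf_normalizer_sylow c.α).le
        ⟨Subgroup.mem_zpowers _, hCN g.2⟩ |>.2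
    · intro hg
      refine Equiv.ext fun B => Subtype.ext ?_
      obtain ⟨Q, -, hB⟩ := B.2
      show (g • B).1 = B.1
      rw [hval, hB, orb_smul, hfixα g.2]
      exact orb_eq_of_mem ⟨⟨g, hg⟩, rfl⟩
  have hkc : Nat.card ψ.ker = 3 := by
    rw [← hM]
    refine Nat.card_congr
      { toFun := fun g => ⟨(g.1 : S), (hker g.1).1 g.2⟩
        invFun := fun a => ⟨⟨a.1, by
          have ha : a.1 ∈ Subgroup.zpowers π := hP.le a.2
          rw [hmemC]
          obtain ⟨i, hi⟩ := Subgroup.mem_zpowers_iff.1 ha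
          rw [← hi]
          exact ((Commute.refl π).zpow_left i).eq⟩, (hker _).2 a.2⟩
        left_inv := fun g => rfl
        right_inv := fun a => rfl }
  have hCcard : Nat.card C = 3 * Nat.card ψ.range := by
    rw [← hkc, ψ.ker.card_eq_card_quotient_mul_card_subgroup, mul_comm,
      Nat.card_congr (QuotientGroup.quotientKerEquivRange ψ).toEquiv]
  have hScard : Nat.card S = 22 * Nat.card N := by
    rw [← Subgroup.card_mul_index N, mul_comm, ← Sylow.card_eq_index_normalizer, h.card]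
  haveI := Fact.mk (by norm_num : Nat.Prime 11)
  set m := Nat.card ψ.range with hm
  have hN11 : Nat.card (Sylow 11 S) = 6 * m := by
    have := card_sylow_eleven_eq h c
    rw [hScard, hcardN, hCcard] at this
    omega
  have hmod := card_sylow_modEq_one 11 S
  rw [hN11] at hmod
  have hm7 : m ∣ 5040 := by
    have := Subgroup.card_subgroup_dvd_card ψ.range
    rwa [Nat.card_perm, hBl] at this
  have h3m : ¬ 3 ∣ m := by
    intro h3
    have h9 : 3 ^ 2 ∣ Nat.card N := by
      rw [hcardN, hCcard]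
      exact ((mul_dvd_mul_left 3 h3).trans (dvd_mul_left _ 2))
    obtain ⟨K, hK⟩ := Sylow.exists_subgroup_card_pow_prime 3 (G := N) h9
    obtain ⟨R, hR⟩ := ((IsPGroup.of_card hK).map N.subtype).exists_le_sylow
    have := Subgroup.card_le_of_le hR
    rw [Subgroup.card_map_of_injective N.subtype_injective, hK, card_eq R c.α, hM] at this
    omega
  have hdiv : ∀ d, d ∈ Nat.divisors 560 → 6 * d % 11 = 1 → d = 2 ∨ d = 35 ∨ d = 112 := by
    decide +kernel
  have hm560 : m ∈ Nat.divisors 560 := by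
    rw [Nat.mem_divisors]
    exact ⟨(((Nat.Prime.coprime_iff_not_dvd (by norm_num)).2 h3m).symm.pow_right 2).dvd_of_dvd_mul_left
      (by rw [show 3 ^ 2 * 560 = 5040 from rfl]; exact hm7), by norm_num⟩
  rcases hdiv m hm560 hmod with h2 | h2 | h2
  · exact c.eleven_twelve h (by rw [hN11, h2])
  · exact card_ne_thirtyfive hBl ψ.range h2
  -- a transposition among the blocks
  obtain ⟨B₁, B₂, hB12, g, hg⟩ := exists_swap_mem hBl ψ.range (by rw [← hm, h2]; norm_num)
  have hg2 : g ^ 2 ∈ ψ.ker := by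
    rw [MonoidHom.mem_ker, map_pow, hg, pow_two, Equiv.swap_mul_self]
  set w : C := g ^ 3 with hw
  have hψw : ψ w = Equiv.swap B₁ B₂ := by
    rw [hw, map_pow, hg, pow_succ, pow_two, Equiv.swap_mul_self, one_mul]
  have hw2 : (w : S) ^ 2 = 1 := by
    have h1 := (hker _).1 hg2
    rw [hw, Subgroup.coe_pow, ← pow_mul, mul_comm, pow_mul, ← Subgroup.coe_pow]
    obtain ⟨i, hi⟩ := Subgroup.mem_zpowers_iff.1 (hP ▸ h1)
    rw [← hi, ← zpow_natCast, ← zpow_mul, mul_comm, zpow_mul, zpow_natCast, hπ3, one_zpow]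
  have hwv : ∀ B : Bl, (w : S) • B.1 = (Equiv.swap B₁ B₂ B).1 := fun B => by
    rw [← hψw]; exact (hval w B).symm
  have hcw : Commute (w : S) π := (hmemC _).1 w.2
  let σ : Equiv.Perm X := MulAction.toPermHom S X (w : S)
  have hsupp : (σ.support : Set X) = B₁.1 ∪ B₂.1 := by
    ext Q
    rw [Finset.mem_coe, Equiv.Perm.mem_support]
    show (w : S) • Q ≠ Q ↔ _
    by_cases hne : c.α = Q
    · subst hne
      refine ⟨fun h1 => absurd (hfixα w.2) h1, fun h1 => ?_⟩
      exfalso
      rcases h1 with h1 | h1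
      · obtain ⟨R, hR, hB⟩ := B₁.2
        rw [hB] at h1
        exact ne_of_mem_orb hR h1 rfl
      · obtain ⟨R, hR, hB⟩ := B₂.2
        rw [hB] at h1
        exact ne_of_mem_orb hR h1 rfl
    let B : Bl := ⟨orb c.α Q, Q, hne, rfl⟩
    have hin : ∀ B' : Bl, Q ∈ B'.1 ↔ B = B' := by
      intro B'
      refine ⟨fun hQ => Subtype.ext ?_, fun he => he ▸ self_mem_orb c.α Q⟩
      obtain ⟨R, -, hB⟩ := B'.2
      show orb c.α Q = B'.1
      rw [hB] at hQ ⊢
      exact orb_eq_of_mem hQ
    rw [Set.mem_union, hin, hin]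
    constructor
    · intro h1
      by_contra h2
      push Not at h2
      obtain ⟨i, hi⟩ := hblock w Q hne (by
        have := hwv B
        rwa [Equiv.swap_apply_of_ne_of_ne h2.1 h2.2] at this)
      apply h1
      have h3 : π ^ (2 * i) • Q = Q := by
        rw [two_mul, zpow_add, mul_smul, ← hi, smul_smul, ← (hcw.zpow_right i).eq, mul_smul, ← hi,
          smul_smul, ← pow_two, hw2, one_smul]
      have hi3 : π ^ i = (π ^ (2 * i))⁻¹ := by
        rw [← zpow_neg, eq_comm]
        calc π ^ (-(2 * i)) = π ^ (-(2 * i)) * (π ^ (3 : ℤ)) ^ i := by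
              rw [show π ^ (3 : ℤ) = 1 by exact_mod_cast hπ3, one_zpow, mul_one]
          _ = π ^ i := by rw [← zpow_mul, ← zpow_add]; congr 1; ring
      rw [hi, hi3, inv_smul_eq_iff, h3]
    · intro h1 he
      have hmem : Q ∈ ((w : S) • B.1 : Set X) := ⟨Q, self_mem_orb _ _, he⟩
      rw [hwv, hin] at hmem
      rcases h1 with h1 | h1 <;> rw [h1] at hmem
      · rw [Equiv.swap_apply_left] at hmem; exact hB12 hmem
      · rw [Equiv.swap_apply_right] at hmem; exact hB12 hmem.symm
  have hc3 : ∀ B : Bl, B.1.ncard = 3 := fun B => by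
    obtain ⟨Q, hQ, hB⟩ := B.2
    rw [hB]
    exact (all_adj_of_card h c.α hM hQ).2
  have hdisj : Disjoint B₁.1 B₂.1 := by
    rw [Set.disjoint_left]
    intro Q h1 h1'
    obtain ⟨R, -, hB⟩ := B₁.2
    obtain ⟨R', -, hB'⟩ := B₂.2
    rw [hB] at h1
    rw [hB'] at h1'
    exact hB12 (Subtype.ext (by rw [hB, hB', ← orb_eq_of_mem h1, orb_eq_of_mem h1']))
  have hcard : σ.support.card = 2 * 3 := by
    rw [← Set.ncard_coe_finset, hsupp, Set.ncard_union_eq hdisj, hc3, hc3]
  have hsign : Equiv.Perm.sign σ = 1 := sign_eq_one h.noncomm (w : S)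
  rw [sign_of_sq_eq_one σ (by rw [← map_pow, hw2, map_one]) hcard] at hsign
  exact absurd hsign (by decide)

end CfsgLib.Components2.TwentyTwo
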